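import Cfsg.Agent.XG.G

/-! Six-dimensional orthogonal spaces over the field with two elements: linear algebra. -/

set_option autoImplicit false
set_option linter.unusedSectionVars false

namespace CF.XG

open Cfsg CF.Geom QuadraticMap Module

variable {V : Type*} [AddCommGroup V] [Module (ZMod 2) V] {q : QuadraticForm (ZMod 2) V}
  {a a' b c c' d f g s s' t u v w x y : V}

theorem pc {t : ZMod 2} (h : polar q u v = t) : polar q v u = t := by rwa [polar_comm]

theorem pol_of_q (hu : q u = 0) (hv : q v = 0) (h : q (u + v) = 0) : polar q u v = 0 := by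
  rwa [quad_add, hu, hv, zero_add, zero_add] at h

/-- nondegenerate of dimension six -/
structure Six (q : QuadraticForm (ZMod 2) V) : Prop where
  dim : finrank (ZMod 2) V = 6
  nd : ∀ u, (∀ v, polar q v u = 0) → u = 0

namespace Six
variable (h : Six q)
include h

theorem one (hu : u ≠ 0) : ∃ v, polar q v u = 1 := by
  by_contra! k
  exact hu (h.nd u fun v => z2_ne' (k v))

theorem both (hu : u ≠ 0) (hv : v ≠ 0) : ∃ w, polar q w u = 1 ∧ polar q w v = 1 := by
  obtain ⟨x, hx⟩ := h.one hu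
  obtain ⟨y, hy⟩ := h.one hv
  rcases z2 (polar q x v) with e | e
  · rcases z2 (polar q y u) with e' | e'
    · exact ⟨x + y, by simp [polar_add_left, *], by simp [polar_add_left, *]⟩
    · exact ⟨y, e', hy⟩
  · exact ⟨x, hx, e⟩

theorem sep (h0 : t ≠ 0) (hu : t ≠ u) : ∃ w, polar q w u = 0 ∧ polar q w t = 1 := by
  obtain ⟨w, h1, h2⟩ := h.both h0 (v := t + u) fun e => hu (add_eq_zero'.1 e)
  rw [polar_add_right, h1, add_eq_left] at h2
  exact ⟨w, h2, h1⟩

theorem ex_perp (a b c d : V) :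
    ∃ v, v ≠ 0 ∧ polar q v a = 0 ∧ polar q v b = 0 ∧ polar q v c = 0 ∧ polar q v d = 0 := by
  haveI := Module.finite_of_finrank_pos (h.dim ▸ (by decide : 0 < 6) : 0 < finrank (ZMod 2) V)
  obtain ⟨v, hv, n⟩ := Submodule.exists_mem_ne_zero_of_ne_bot (LinearMap.ker_ne_bot_of_finrank_lt
    (f := LinearMap.pi fun i : Fin 4 => polarBilin q (![a, b, c, d] i)) (by simp [h.dim]))
  have := fun i => congrFun (LinearMap.mem_ker.1 hv) i
  exact ⟨v, n, pc (this 0), pc (this 1), pc (this 2), pc (this 3)⟩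

theorem span3 (af : polar q f a = 0) (ag : polar q g a = 0) (fg : polar q g f = 0) (ax : polar q x a = 1)
    (ay : polar q y a = 0) (aw : polar q w a = 0) (fy : polar q y f = 1) (fw : polar q w f = 0)
    (gw : polar q w g = 1) (va : polar q v a = 0) (vf : polar q v f = 0) (vg : polar q v g = 0) :
    ∃ i j k : ZMod 2, v = i • a + j • f + k • g := by
  haveI := Module.finite_of_finrank_pos (h.dim ▸ (by decide : 0 < 6) : 0 < finrank (ZMod 2) V)
  obtain ⟨k, e, i, hi⟩ := Fintype.not_linearIndependent_iff.1 fun l : LinearIndependent (ZMod 2) ![a, f, g, v, x, y, w] =>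
    absurd l.fintype_card_le_finrank (by simp [h.dim])
  simp only [Fin.sum_univ_seven, Matrix.cons_val] at e
  have p := fun u => congrArg (polar q · u) e
  have p' := fun u => congrArg (polar q u) e
  simp only [polar_add_left, polar_add_right, polar_smul_left, polar_smul_right, smul_eq_mul, polar_zero_left,
    polar_zero_right] at p p'
  have k4 : k 4 = 0 := by simpa [-polar_self, pol_self, *] using p a
  have k5 : k 5 = 0 := by simpa [-polar_self, pol_self, pc af, *] using p f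
  have k6 : k 6 = 0 := by simpa [-polar_self, pol_self, pc ag, pc fg, k4, k5, gw, vg] using p g
  simp only [k4, k5, k6, zero_smul, add_zero, zero_mul] at e p'
  rcases z2 (k 3) with k3 | k3
  · have k2 : k 2 = 0 := by simpa [*] using p' w
    have k1 : k 1 = 0 := by simpa [k2, k3, ay, fy] using p' y
    have k0 : k 0 = 0 := by simpa [k1, k2, k3, ax] using p' x
    fin_cases i <;> simp_all
  · rw [k3, one_smul, add_eq_zero'] at e
    exact ⟨_, _, _, e.symm⟩

theorem ex_ns (P : V → Prop) (add : ∀ u v, P u → P v → P (u + v)) (hu : P u) (u0 : u ≠ 0)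
    (pr : ∀ v, ∃ w, P w ∧ polar q w u = polar q v u) : ∃ w, P w ∧ q w = 1 := by
  by_contra! k
  obtain ⟨v, hv⟩ := h.one u0
  obtain ⟨w, h1, h2⟩ := pr v
  exact z01 ((pol_of_q (z2_ne' (k w h1)) (z2_ne' (k u hu)) (z2_ne' (k _ (add _ _ h1 hu)))).symm.trans (h2.trans hv))

end Six

section
variable (aa : polar q a a' = 1)
include aa

theorem nc (ca : polar q c a = 0) (ca' : polar q c a' = 0) (hc : q c = 1) :
    sg q a c (sg q a' c (sg q a c a)) = a' ∧ sg q a c (sg q a' c (sg q a c a')) = a ∧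
      ∀ v, polar q v a = 0 → polar q v a' = 0 → sg q a c (sg q a' c (sg q a c v)) = v + polar q v c • c := by
  have e1 : sg q a c a = a := sg_fix (pol_self a) (pc ca)
  have e2 : sg q a c a' = a' + c + a := by rw [sg_one (pc aa), pc ca', hc]; simp
  have e3 : sg q a c c = c := sg_fix ca (pol_self c)
  have f1 : sg q a' c a' = a' := sg_fix (pol_self a') (pc ca')
  have f2 : sg q a' c a = a + c + a' := by rw [sg_one aa, pc ca, hc]; simp
  have f3 : sg q a' c c = c := sg_fix ca' (pol_self c)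
  refine ⟨?_, ?_, fun v vx vy => ?_⟩
  · simp only [sg_add, e1, e2, e3, f1, f2, f3]
    apply v2; match_scalars <;> decide
  · simp only [sg_add, e1, e2, e3, f1, f2, f3]
    apply v2; match_scalars <;> decide
  · simp only [sg_add, sg_smul, e1, e2, e3, f1, f2, f3, sg_perp vx, sg_perp vy]
    generalize polar q v c = s
    apply v2; match_scalars <;> revert s <;> decide

theorem gg (sa : polar q s a = 0) (sa' : polar q s a' = 0) (ta : polar q t a = 0) (ta' : polar q t a' = 0)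
    (hs : q s = 0) (ht : q t = 0) (st : polar q s t = 0) :
    sg q a s (sg q a' t (sg q a s (sg q a' t a))) = a ∧ ∀ v, polar q v a = 0 → polar q v a' = 0 →
      sg q a s (sg q a' t (sg q a s (sg q a' t v))) = v + polar q v s • t + polar q v t • s := by
  have e1 : sg q a s a = a := sg_fix (pol_self a) (pc sa)
  have e2 : sg q a s a' = a' + s := by rw [sg_one (pc aa), pc sa', hs]; simp
  have e3 : sg q a s s = s := sg_fix sa (pol_self s)
  have e4 : sg q a s t = t := sg_fix ta (pc st)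
  have f1 : sg q a' t a' = a' := sg_fix (pol_self a') (pc ta')
  have f2 : sg q a' t a = a + t := by rw [sg_one aa, pc ta, ht]; simp
  have f3 : sg q a' t t = t := sg_fix ta' (pol_self t)
  have f4 : sg q a' t s = s := sg_fix sa' st
  refine ⟨?_, fun v vx vy => ?_⟩
  · simp only [sg_add, e1, e2, e3, e4, f1, f2, f3, f4]
    apply v2; match_scalars <;> decide
  · simp only [sg_add, sg_smul, e1, e2, e3, e4, f1, f2, f3, f4, sg_perp vx, sg_perp vy]
    generalize polar q v s = i, polar q v t = j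
    apply v2; match_scalars <;> revert i j <;> decide

theorem proj (v : V) : polar q (v + polar q v a' • a + polar q v a • a') a = 0 ∧
    polar q (v + polar q v a' • a + polar q v a • a') a' = 0 := by
  simp only [polar_add_left, polar_smul_left, smul_eq_mul, pol_self, aa, pc aa]
  generalize polar q v a = i, polar q v a' = j
  revert i j; decide

end

/-- the data induced on the quadratic space by the conjugates of the central involution -/
structure OS (q : QuadraticForm (ZMod 2) V) (Γ : Set V) (C F : V → Set V) (N : Set (V → V)) : Prop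
    extends Six q where
  sing : ∀ {a}, a ∈ Γ → q a = 0
  ne : ∀ {a}, a ∈ Γ → a ≠ 0
  Cs : ∀ {a}, a ∈ Γ → a ∈ C a
  Fs : ∀ {a}, a ∈ Γ → a ∈ F a
  Cp : ∀ {a c}, a ∈ Γ → c ∈ C a → polar q c a = 0
  Fq : ∀ {a f}, a ∈ Γ → f ∈ F a → q f = 0
  Ca : ∀ {a c d}, a ∈ Γ → c ∈ C a → d ∈ C a → c + d ∈ C a
  Fa : ∀ {a c d}, a ∈ Γ → c ∈ F a → d ∈ F a → c + d ∈ F a
  CF : ∀ {a v}, a ∈ Γ → v ∈ C a → v ∈ F a → v = 0 ∨ v = a
  dec : ∀ {a v}, a ∈ Γ → polar q v a = 0 → ∃ c ∈ C a, ∃ f ∈ F a, v = c + f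
  sgN : ∀ {a c}, a ∈ Γ → c ∈ C a → sg q a c ∈ N
  comp : ∀ {f g}, f ∈ N → g ∈ N → (fun v => f (g v)) ∈ N
  lin : ∀ {g}, g ∈ N → ∀ u v, g (u + v) = g u + g v
  iso : ∀ {g}, g ∈ N → ∀ v, q (g v) = q v
  inv : ∀ {g}, g ∈ N → ∃ k ∈ N, (∀ v, k (g v) = v) ∧ ∀ v, g (k v) = v
  oΓ : ∀ {g a}, g ∈ N → a ∈ Γ → g a ∈ Γ
  oC : ∀ {g a c}, g ∈ N → a ∈ Γ → c ∈ C a → g c ∈ C (g a)
  oF : ∀ {g a c}, g ∈ N → a ∈ Γ → c ∈ F a → g c ∈ F (g a)
  irr : ∀ {a w}, a ∈ Γ → w ≠ 0 → ∃ g ∈ N, polar q (g a) w = 1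

namespace OS
variable {Γ : Set V} {C F : V → Set V} {N : Set (V → V)} (h : OS q Γ C F N) {k : V → V}
include h

theorem pol (hk : k ∈ N) (u v : V) : polar q (k u) (k v) = polar q u v := by
  simp only [polar, ← h.lin hk, h.iso hk]

theorem inj (hk : k ∈ N) (e : k u = k v) : u = v := by
  obtain ⟨l, -, e1, -⟩ := h.inv hk
  rw [← e1 u, e, e1]

theorem zero (hk : k ∈ N) : k 0 = 0 := by rw [← vv 0, h.lin hk, vv, vv]

theorem smul (hk : k ∈ N) (t : ZMod 2) (v : V) : k (t • v) = t • k v := by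
  rcases z2 t with rfl | rfl <;> simp [h.zero hk]

theorem opp (ha : a ∈ Γ) : ∃ b ∈ Γ, polar q a b = 1 := by
  obtain ⟨k, hk, e⟩ := h.irr ha (h.ne ha)
  exact ⟨_, h.oΓ hk ha, pc e⟩

variable (ha : a ∈ Γ)
include ha

theorem C0 : 0 ∈ C a := vv a ▸ h.Ca ha (h.Cs ha) (h.Cs ha)
theorem F0 : 0 ∈ F a := vv a ▸ h.Fa ha (h.Fs ha) (h.Fs ha)
theorem Cm (hc : c ∈ C a) (t : ZMod 2) : t • c ∈ C a := by rcases z2 t with rfl | rfl <;> simp [hc, h.C0 ha]
theorem Fm (hc : c ∈ F a) (t : ZMod 2) : t • c ∈ F a := by rcases z2 t with rfl | rfl <;> simp [hc, h.F0 ha]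
theorem Cc (hc : c + d ∈ C a) (hd : d ∈ C a) : c ∈ C a := vv'' c d ▸ h.Ca ha hc hd
theorem FF (hf : f ∈ F a) (hg : g ∈ F a) : polar q f g = 0 := pol_of_q (h.Fq ha hf) (h.Fq ha hg) (h.Fq ha (h.Fa ha hf hg))
theorem Fp (hf : f ∈ F a) : polar q f a = 0 := h.FF ha hf (h.Fs ha)

theorem idN : (fun v => v) ∈ N := by
  have := h.sgN ha (h.C0 ha)
  rwa [show sg q a 0 = fun v => v from funext (sg_zero a)] at this

theorem restrict : OS q {b | ∃ k ∈ N, k a = b} C F N := by
  have m : ∀ {b}, b ∈ {b | ∃ k ∈ N, k a = b} → b ∈ Γ := fun ⟨k, hk, e⟩ => e ▸ h.oΓ hk ha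
  exact { h with
    sing := fun l => h.sing (m l), ne := fun l => h.ne (m l), Cs := fun l => h.Cs (m l), Fs := fun l => h.Fs (m l)
    Cp := fun l => h.Cp (m l), Fq := fun l => h.Fq (m l), Ca := fun l => h.Ca (m l), Fa := fun l => h.Fa (m l)
    CF := fun l => h.CF (m l), dec := fun l => h.dec (m l), sgN := fun l => h.sgN (m l)
    oΓ := fun hg ⟨k, hk, e⟩ => ⟨_, h.comp hg hk, congrArg _ e⟩
    oC := fun hg l => h.oC hg (m l), oF := fun hg l => h.oF hg (m l), irr := fun l => h.irr (m l) }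

variable (aa : polar q a a' = 1)
include aa

theorem nrmC (hc : c ∈ C a) : c + polar q c a' • a ∈ C a ∧ polar q (c + polar q c a' • a) a' = 0 ∧
    q (c + polar q c a' • a) = q c := by
  refine ⟨h.Ca ha hc (h.Cm ha (h.Cs ha) _), ?_, ?_⟩ <;>
    simp [polar_add_left, polar_smul_left, polar_smul_right, quad_add, q_smul, aa, h.sing ha, h.Cp ha hc, CharTwo.add_self_eq_zero]

theorem CF0 (hc : v ∈ C a) (hf : v ∈ F a) (va : polar q v a' = 0) : v = 0 :=
  (h.CF ha hc hf).resolve_right fun e => z01 (va.symm.trans (e ▸ aa))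

theorem dec0 (va : polar q v a = 0) (va' : polar q v a' = 0) :
    ∃ c ∈ C a, ∃ f ∈ F a, polar q c a' = 0 ∧ polar q f a' = 0 ∧ v = c + f := by
  obtain ⟨c, hc, f, hf, rfl⟩ := h.dec ha va
  obtain ⟨h1, h2, -⟩ := h.nrmC ha aa hc
  refine ⟨_, h1, _, h.Fa ha hf (h.Fm ha (h.Fs ha) (polar q c a')), h2, ?_, by apply v2; match_scalars <;> simp [CharTwo.add_self_eq_zero]⟩
  rw [polar_add_left] at va'
  rw [polar_add_left, polar_smul_left, aa, smul_eq_mul, mul_one, add_comm, va']

theorem zero0 (va : polar q v a = 0) (va' : polar q v a' = 0) (vC : ∀ c ∈ C a, polar q c a' = 0 → polar q c v = 0)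
    (vF : ∀ c ∈ F a, polar q c a' = 0 → polar q c v = 0) : v = 0 := h.nd v fun u => by
  obtain ⟨c, hc, f, hf, e1, e2, e⟩ := h.dec0 ha aa (proj aa u).1 (proj aa u).2
  have := congrArg (polar q · v) e
  simpa [polar_add_left, polar_smul_left, pc va, pc va', vC c hc e1, vF f hf e2] using this

theorem two0 (s : V) : ∃ c ∈ C a, polar q c a' = 0 ∧ c ≠ 0 ∧ c ≠ s := by
  by_contra! k
  obtain ⟨x, hx⟩ : ∃ x, s ≠ 0 → polar q x s = 1 := by
    by_cases e : s = 0
    exacts [⟨0, fun l => (l e).elim⟩, (h.toSix.one e).imp fun x l _ => l]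
  have k' : ∀ c ∈ C a, polar q c a' = 0 → ∀ v, polar q v s = 0 → polar q c v = 0 := fun c hc e v l => by
    by_cases c0 : c = 0
    · rw [c0, polar_zero_left]
    · rw [k c hc e c0]; exact pc l
  obtain ⟨v, v0, h1, h2, h3, h4⟩ := h.ex_perp a a' s x
  obtain ⟨c, hc, f, hf, e1, e2, rfl⟩ := h.dec0 ha aa h1 h2
  rw [polar_add_left, k' c hc e1 s (pol_self s), zero_add] at h3
  obtain rfl : f = 0 := h.zero0 ha aa (h.Fp ha hf) e2 (fun d hd e => k' d hd e f h3) fun d hd _ => h.FF ha hd hf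
  rw [add_zero] at v0 h4
  obtain rfl := k c hc e1 v0
  exact z01 ((pc h4).symm.trans (hx v0))

end OS

end CF.XG
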