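import Cfsg.Agent.XG.N

/-! Width three: either the intersection of adjacent extraspecial groups is a four-group or the Siegel
parameters are singular. -/

set_option autoImplicit false
set_option linter.unusedSectionVars false

namespace CF.XG

open Cfsg CF.Geom QuadraticMap Module

variable {V : Type*} [AddCommGroup V] [Module (ZMod 2) V] {q : QuadraticForm (ZMod 2) V}
  {a a' b c c' d f g s s' t u v w x y : V}

namespace OS
variable {Γ : Set V} {C F : V → Set V} {N : Set (V → V)} (h : OS q Γ C F N) {k : V → V}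
include h

section
variable (ha : a ∈ Γ) (ha' : a' ∈ Γ) (aa : polar q a a' = 1)
include ha ha' aa

theorem ncN (hc : c ∈ C a) (hc' : c ∈ C a') : (fun v => sg q a c (sg q a' c (sg q a c v))) ∈ N :=
  h.comp (h.sgN ha hc) (h.comp (h.sgN ha' hc') (h.sgN ha hc))

theorem ggN (hs : s ∈ C a) (ht : t ∈ C a') : (fun v => sg q a s (sg q a' t (sg q a s (sg q a' t v)))) ∈ N :=
  h.comp (h.sgN ha hs) (h.comp (h.sgN ha' ht) (h.comp (h.sgN ha hs) (h.sgN ha' ht)))

theorem P1 (hc : c ∈ C a) (hc' : c ∈ C a') (qc : q c = 1) (hd : d ∈ C a) (da : polar q d a' = 0) : d ∈ C a' := by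
  obtain ⟨e1, -, e3⟩ := nc aa (h.Cp ha hc) (h.Cp ha' hc') qc
  have := h.oC (h.ncN ha ha' aa hc hc') ha hd
  simp only [e1, e3 d (h.Cp ha hd) da] at this
  exact h.Cc ha' this (h.Cm ha' hc' _)

theorem P2 (hc : c ∈ C a) (hc' : c ∈ C a') (qc : q c = 1) (hd : d ∈ C a) (hd' : d ∈ C a') (qd : q d = 1) (ne : c ≠ d)
    (hf : f ∈ F a) (fa : polar q f a' = 0) : polar q f c = 0 := z2_ne' fun n => by
  obtain ⟨e1, -, e3⟩ := nc aa (h.Cp ha hc) (h.Cp ha' hc') qc
  obtain ⟨-, e2, e4⟩ := nc aa (h.Cp ha hd) (h.Cp ha' hd') qd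
  have h1 := h.oF (h.ncN ha ha' aa hc hc') ha hf
  simp only [e1, e3 f (h.Fp ha hf) fa, n, one_smul] at h1
  have h2 := h.oF (h.ncN ha ha' aa hd hd') ha' h1
  simp only [e2, e4 (f + c) (by rw [polar_add_left, h.Fp ha hf, h.Cp ha hc, add_zero]) (h.Fp ha' h1)] at h2
  have h3 := h.Fa ha hf h2
  rw [add_assoc, vv'] at h3
  have h4 := h.CF0 ha aa (h.Ca ha hc (h.Cm ha hd _)) h3
    (by rw [polar_add_left, polar_smul_left, h.Cp ha' hc', h.Cp ha' hd', smul_zero, add_zero])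
  rcases z2 (polar q (f + c) d) with e | e <;> rw [e] at h4
  · rw [zero_smul, add_zero] at h4
    exact z01 (by rw [← qc, h4, map_zero])
  · exact ne (add_eq_zero'.1 (by simpa using h4))

omit ha' in
theorem exC (hf : f ∈ F a) (fa : polar q f a' = 0) (f0 : f ≠ 0) : ∃ x ∈ C a, polar q x a' = 0 ∧ polar q x f = 1 := by
  by_contra! k
  exact f0 (h.zero0 ha aa (h.Fp ha hf) fa (fun c hc e => z2_ne' (k c hc e)) fun c hc _ => h.FF ha hc hf)

theorem P (hf : f ∈ F a) (fa : polar q f a' = 0) (f0 : f ≠ 0) (hc : c ∈ C a) (hc' : c ∈ C a') (qc : q c = 1)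
    (hd : d ∈ C a) (da : polar q d a' = 0) (qd : q d = 1) : d = c := by
  by_contra ne
  have ca := h.Cp ha' hc'
  have A : ∀ e ∈ C a, polar q e a' = 0 → q e = 1 → ∀ g ∈ F a, polar q g a' = 0 → polar q g e = 0 :=
    fun e he e1 e2 g hg ga => by
      by_cases l : e = c
      · exact l ▸ h.P2 ha ha' aa hc hc' qc hd (h.P1 ha ha' aa hc hc' qc hd da) qd (Ne.symm ne) hg ga
      · exact h.P2 ha ha' aa he (h.P1 ha ha' aa hc hc' qc he e1) e2 hc hc' qc l hg ga
  obtain ⟨x, hx, xa, xf⟩ := h.exC ha aa hf fa f0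
  have T : ∀ y ∈ C a, polar q y a' = 0 → polar q y f = 1 → q y = 0 := fun y hy e1 e2 =>
    z2_ne' fun l => z01 ((A y hy e1 l f hf fa).symm.trans (pc e2))
  have T1 : ∀ y ∈ C a, polar q y a' = 0 → polar q y f = 1 → ∀ e ∈ C a, polar q e a' = 0 → q e = 1 →
      polar q y e = 1 := fun y hy e1 e2 e he e3 e4 => by
    have := T _ (h.Ca ha hy he) (by rw [polar_add_left, e1, e3, add_zero])
      (by rw [polar_add_left, e2, pc (A e he e3 e4 f hf fa), add_zero])
    rwa [quad_add, T y hy e1 e2, e4, zero_add, CharTwo.add_eq_zero, eq_comm] at this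
  have T2 : ∀ y ∈ C a, polar q y a' = 0 → polar q y f = 1 → polar q y (d + c) = 0 := fun y hy e1 e2 => by
    rw [polar_add_right, T1 y hy e1 e2 c hc ca qc, T1 y hy e1 e2 d hd da qd, z11]
  refine ne (add_eq_zero'.1 (h.zero0 ha aa (h.Cp ha (h.Ca ha hd hc)) (by rw [polar_add_left, da, ca, add_zero])
    (fun y hy e => ?_) fun g hg e => by rw [polar_add_right, A c hc ca qc g hg e, A d hd da qd g hg e, add_zero]))
  rcases z2 (polar q y f) with l | l
  · have := T2 _ (h.Ca ha hy hx) (by rw [polar_add_left, e, xa, add_zero]) (by rw [polar_add_left, l, xf, zero_add])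
    rwa [polar_add_left, T2 x hx xa xf, add_zero] at this
  · exact T2 y hy e l

omit ha' in
theorem big0 (k : ∃ f ∈ F a, f ≠ 0 ∧ f ≠ a) : ∃ f ∈ F a, polar q f a' = 0 ∧ f ≠ 0 := by
  obtain ⟨f, hf, f0, fa⟩ := k
  rcases z2 (polar q f a') with e | e
  · exact ⟨f, hf, e, f0⟩
  · exact ⟨_, h.Fa ha hf (h.Fs ha), by rw [polar_add_left, e, aa, z11], fun l => fa (add_eq_zero'.1 l)⟩

omit ha' in
theorem ns0 (k : ∃ c ∈ C a, q c = 1) : ∃ c ∈ C a, polar q c a' = 0 ∧ q c = 1 := by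
  obtain ⟨c, hc, qc⟩ := k
  obtain ⟨h1, h2, h3⟩ := h.nrmC ha aa hc
  exact ⟨_, h1, h2, h3.trans qc⟩

omit ha' in
theorem twin0 (k : ∃ c ∈ C a, ∃ d ∈ C a, q c = 1 ∧ q d = 1 ∧ d ≠ c ∧ d ≠ c + a) :
    ∃ c ∈ C a, ∃ d ∈ C a, polar q c a' = 0 ∧ polar q d a' = 0 ∧ q c = 1 ∧ q d = 1 ∧ d ≠ c := by
  obtain ⟨c, hc, d, hd, qc, qd, n1, n2⟩ := k
  obtain ⟨h1, h2, h3⟩ := h.nrmC ha aa hc
  obtain ⟨k1, k2, k3⟩ := h.nrmC ha aa hd
  refine ⟨_, h1, _, k1, h2, k2, h3.trans qc, k3.trans qd, fun e => ?_⟩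
  rw [add_eq_iff, add_assoc, ← add_smul] at e
  rcases z2 (polar q c a' + polar q d a') with l | l <;> rw [l] at e
  exacts [n1 (by simpa using e), n2 (by simpa using e)]

end

theorem caseM (ha : a ∈ Γ) (big : ∀ a ∈ Γ, ∃ f ∈ F a, f ≠ 0 ∧ f ≠ a)
    (two : ∀ a ∈ Γ, ∃ c ∈ C a, ∃ d ∈ C a, q c = 1 ∧ q d = 1 ∧ d ≠ c ∧ d ≠ c + a) : False := by
  have noP : ∀ x ∈ Γ, ∀ y ∈ Γ, polar q x y = 1 → ∀ c ∈ C x, c ∈ C y → q c ≠ 1 := fun x hx y hy e c hc hc' qc => by
    obtain ⟨f, hf, fa, f0⟩ := h.big0 hx e (big x hx)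
    obtain ⟨u, hu, v, hv, u1, v1, u2, v2, n⟩ := h.twin0 hx e (two x hx)
    exact n ((h.P hx hy e hf fa f0 hc hc' qc hv v1 v2).trans (h.P hx hy e hf fa f0 hc hc' qc hu u1 u2).symm)
  obtain ⟨a', ha', aa⟩ := h.opp ha
  obtain ⟨c, hc, d, hd, ca, da, qc, qd, n⟩ := h.twin0 ha aa (two a ha)
  obtain ⟨c', hc', -, -, ca', -, qc', -⟩ := h.twin0 ha' (pc aa) (two a' ha')
  have K : ∀ e ∈ C a, polar q e a' = 0 → q e = 1 → polar q e c' = 1 := fun e he e1 e2 => z2_ne fun l => by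
    have := h.oC (h.sgN ha' hc') ha he
    rw [sg_fix e1 l] at this
    refine noP a ha _ (h.oΓ (h.sgN ha' hc') ha) ?_ e he this e2
    simp [sg_one aa, -polar_self, polar_add_right, polar_smul_right, pol_self, pc ca', qc', aa]
  have O : ∀ e ∈ C a, polar q e a' = 0 → q e = 1 → ∀ e' ∈ C a, polar q e' a' = 0 → q e' = 1 → polar q e e' = 0 :=
    fun e he e1 e2 e' he' e3 e4 => z2_ne' fun l => by
      have := K _ (h.Ca ha he he') (by rw [polar_add_left, e1, e3, add_zero]) (by rw [quad_add, e2, e4, l]; rfl)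
      rw [polar_add_left, K e he e1 e2, K e' he' e3 e4] at this
      exact z01 this
  have cd := O c hc ca qc d hd da qd
  have R0 : ∀ e ∈ C a, polar q e a' = 0 → q e = 1 → ∀ e' ∈ C a, polar q e' a' = 0 → q e' = 1 →
      ∀ y ∈ C a, polar q y a' = 0 → polar q y e = 0 → polar q y e' = 0 := fun e he e1 e2 e' he' e3 e4 y hy y1 y2 => by
    rcases z2 (q y) with l | l
    · have := O _ (h.Ca ha hy he) (by rw [polar_add_left, e1, y1, add_zero]) (by rw [quad_add, l, e2, y2]; rfl) e' he' e3 e4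
      rwa [polar_add_left, O e he e1 e2 e' he' e3 e4, add_zero] at this
    · exact O y hy y1 l e' he' e3 e4
  have R : ∀ y ∈ C a, polar q y a' = 0 → polar q y (d + c) = 0 := fun y hy e => by
    rw [polar_add_right, CharTwo.add_eq_zero]
    rcases z2 (polar q y c) with l | l <;> rw [l]
    exacts [R0 c hc ca qc d hd da qd y hy e l, z2_ne fun m => z01 ((R0 d hd da qd c hc ca qc y hy e m).symm.trans l)]
  have hr := h.Ca ha hd hc
  have ra : polar q (d + c) a' = 0 := by rw [polar_add_left, da, ca, add_zero]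
  obtain ⟨v, hv, f, hf, va, fa, e⟩ := h.dec0 ha aa ca' (h.Cp ha' hc')
  have f0 : f ≠ 0 := fun l => noP a ha a' ha' aa c' (by rw [e, l, add_zero]; exact hv) hc' qc'
  have fr : polar q (d + c) f = 0 := by
    have : polar q (d + c) c' = 0 := by rw [polar_add_left, K c hc ca qc, K d hd da qd, z11]
    rwa [e, polar_add_right, pc (R v hv va), zero_add] at this
  obtain ⟨g, hg, ga, gr⟩ : ∃ g ∈ F a, polar q g a' = 0 ∧ polar q g (d + c) = 1 := by
    by_contra! k
    exact n (add_eq_zero'.1 (h.zero0 ha aa (h.Cp ha hr) ra R fun g hg e => z2_ne' (k g hg e)))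
  obtain ⟨x, hx, -, xf⟩ := h.exC ha aa hf fa f0
  have ker : ∀ y ∈ C a, polar q y a' = 0 → polar q y f = 0 → polar q y g = 0 → y = 0 := fun y hy y1 y2 y3 => by
    obtain ⟨i, j, l, rfl⟩ := h.span3 (h.Fp ha hf) (h.Fp ha hg) (h.FF ha hg hf) (pc aa) (h.Cp ha hx) (h.Cp ha hr) xf fr
      (pc gr) (h.Cp ha hy) y2 y3
    exact h.CF0 ha aa hy (h.Fa ha (h.Fa ha (h.Fm ha (h.Fs ha) i) (h.Fm ha hf j)) (h.Fm ha hg l)) y1
  have ker' : ∀ y ∈ C a, polar q y a' = 0 → polar q y f = 0 → y = 0 ∨ y = d + c := fun y hy y1 y2 =>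
    (z2 (polar q y g)).imp (ker y hy y1 y2) fun l => add_eq_zero'.1 (ker _ (h.Ca ha hy hr)
      (by rw [polar_add_left, y1, ra, add_zero]) (by rw [polar_add_left, y2, fr, add_zero])
      (by rw [polar_add_left, l, pc gr, z11]))
  have qr : q (d + c) = 0 := by rw [quad_add, qc, qd, pc cd]; rfl
  have q0 : ∀ y ∈ C a, polar q y a' = 0 → polar q y f = 0 → q y = 0 := fun y hy y1 y2 => by
    rcases ker' y hy y1 y2 with rfl | rfl
    exacts [map_zero q, qr]
  have cf : polar q c f = 1 := z2_ne fun l => z01 ((q0 c hc ca l).symm.trans qc)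
  rw [e, quad_add, h.Fq ha hf, add_zero] at qc'
  rcases z2 (polar q v f) with l | l <;> rw [l] at qc'
  · exact z01 (by rwa [q0 v hv va l] at qc')
  · rcases ker' _ (h.Ca ha hv hc) (by rw [polar_add_left, va, ca, add_zero]) (by rw [polar_add_left, l, cf, z11])
      with m | m
    · rw [add_eq_zero'.1 m, qc] at qc'; exact z01 qc'
    · rw [add_left_inj] at m
      rw [m, qd] at qc'; exact z01 qc'

section
variable (ns : ∀ a ∈ Γ, ∃ c ∈ C a, q c = 1)
  (uq : ∀ a ∈ Γ, ∀ c ∈ C a, ∀ d ∈ C a, q c = 1 → q d = 1 → d = c ∨ d = c + a)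
include ns uq

theorem U1 (ha : a ∈ Γ) (aa : polar q a a' = 1) : ∃ s ∈ C a, ∃ t ∈ C a, polar q s a' = 0 ∧ polar q t a' = 0 ∧
    q s = 0 ∧ q t = 0 ∧ polar q s t = 1 ∧ ∀ c ∈ C a, polar q c a' = 0 → c = 0 ∨ c = s ∨ c = t ∨ c = s + t := by
  obtain ⟨t, ht, ta, qt⟩ := h.ns0 ha aa (ns a ha)
  have A : ∀ c ∈ C a, polar q c a' = 0 → c ≠ t → q c = 0 := fun c hc e n => z2_ne' fun l =>
    (uq a ha t ht c hc qt l).elim n fun m => z01 (by rw [← e, m, polar_add_left, ta, aa, zero_add])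
  have B : ∀ c ∈ C a, polar q c a' = 0 → c ≠ 0 → c ≠ t → polar q c t = 1 := fun c hc e n0 n => by
    have := A _ (h.Ca ha hc ht) (by rw [polar_add_left, e, ta, add_zero]) (by simpa using n0)
    rwa [quad_add, A c hc e n, qt, zero_add, CharTwo.add_eq_zero, eq_comm] at this
  obtain ⟨s, hs, sa, s0, st⟩ := h.two0 ha aa t
  have sta : polar q (s + t) a' = 0 := by rw [polar_add_left, sa, ta, add_zero]
  refine ⟨s, hs, _, h.Ca ha hs ht, sa, sta, A s hs sa st, A _ (h.Ca ha hs ht) sta (by simpa using s0),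
    by rw [polar_add_right, pol_self, B s hs sa s0 st, zero_add], fun c hc e => ?_⟩
  by_contra! k
  rw [vv'] at k
  have := B _ (h.Ca ha hc hs) (by rw [polar_add_left, e, sa, add_zero]) (fun l => k.2.1 (add_eq_zero'.1 l))
    fun l => k.2.2.1 (by rw [add_eq_iff.1 l, add_comm])
  rw [polar_add_left, B c hc e k.1 k.2.2.2, B s hs sa s0 st] at this
  exact z01 this

omit ns uq in
theorem tau (ha : a ∈ Γ) (aa : polar q a a' = 1) (wa : polar q a w = 0)
    (A : ∀ c ∈ C a, polar q c a' = 0 → c = 0 ∨ c = s ∨ c = t ∨ c = s + t) (sw : polar q s w = 0)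
    (tw : polar q t w = 0) (hc : c ∈ C a) : polar q c w = 0 := by
  obtain ⟨h1, h2, -⟩ := h.nrmC ha aa hc
  have : polar q (c + polar q c a' • a) w = 0 := by
    rcases A _ h1 h2 with e | e | e | e <;> rw [e] <;> simp [polar_add_left, *]
  simpa [polar_add_left, polar_smul_left, wa] using this

theorem U2 (ha : a ∈ Γ) (aa : polar q a a' = 1) (qv : q v = 1) (qw : q w = 1) (va : polar q v a' = 0)
    (wa : polar q w a' = 0) (hv : ∀ c ∈ C a, polar q c v = 0) (hw : ∀ c ∈ C a, polar q c w = 0) : v = w := by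
  obtain ⟨s, hs, t, ht, sa, ta, qs, qt, st, A⟩ := h.U1 ns uq ha aa
  have B : ∀ v, q v = 1 → polar q v a' = 0 → (∀ c ∈ C a, polar q c v = 0) → s + t + v ∈ F a := fun v qv va hv => by
    obtain ⟨c, hc, f, hf, ca, fa, rfl⟩ := h.dec0 ha aa (pc (hv a (h.Cs ha))) va
    have := hv c hc
    rw [polar_add_right, pol_self, zero_add] at this
    rw [quad_add, this, h.Fq ha hf, add_zero, add_zero] at qv
    rcases A c hc ca with rfl | rfl | rfl | rfl
    exacts [(z01 ((map_zero q).symm.trans qv)).elim, (z01 (qs.symm.trans qv)).elim, (z01 (qt.symm.trans qv)).elim,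
      (vv' _ f).symm ▸ hf]
  have := h.Fa ha (B v qv va hv) (B w qw wa hw)
  rw [add_add_add_comm, vv, zero_add] at this
  exact add_eq_zero'.1 (h.zero0 ha aa (h.Fp ha this) (by rw [polar_add_left, va, wa, add_zero])
    (fun c hc _ => by rw [polar_add_right, hv c hc, hw c hc, add_zero]) fun c hc _ => h.FF ha hc this)

theorem U3 (ha : a ∈ Γ) (ha' : a' ∈ Γ) (aa : polar q a a' = 1) (qw : q w = 1) (wa : polar q w a' = 0)
    (hw : ∀ c ∈ C a, polar q c w = 0) : ∀ c ∈ C a', polar q c w = 0 := by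
  obtain ⟨s, hs, t, ht, sa, ta, qs, qt, st, A⟩ := h.U1 ns uq ha aa
  have B : ∀ s ∈ C a, ∀ t ∈ C a, polar q s a' = 0 → polar q t a' = 0 → q s = 0 → polar q t s = 1 →
      ∀ u ∈ C a', polar q u a = 0 → q u = 0 → polar q s u = 0 → u ∈ C a := fun s hs t ht sa ta qs st u hu ua qu su => by
    obtain ⟨e1, e2⟩ := gg aa (h.Cp ha hs) sa ua (h.Cp ha' hu) qs qu su
    have := h.oC (h.ggN ha ha' aa hs hu) ha ht
    simp only [e1, e2 t (h.Cp ha ht) ta, st, one_smul] at this
    exact h.Cc ha (add_comm t u ▸ h.Cc ha this (h.Cm ha hs _)) ht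
  have D : ∀ u ∈ C a', polar q u a = 0 → q u = 0 → polar q u w = 0 := fun u hu ua qu => by
    rcases z2 (polar q s u) with e | e
    · exact hw u (B s hs t ht sa ta qs (pc st) u hu ua qu e)
    rcases z2 (polar q t u) with e' | e'
    · exact hw u (B t ht s hs ta sa qt st u hu ua qu e')
    have : s + t + u = w := h.U2 ns uq ha aa (by simp [quad_add, polar_add_left, *]; rfl) qw
      (by simp [polar_add_left, sa, ta, h.Cp ha' hu]) wa (fun c hc => h.tau ha aa
      (by simp [polar_add_right, pc ua, pc (h.Cp ha hs), pc (h.Cp ha ht)]) A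
      (by simp [polar_add_right, -polar_self, pol_self, st, e, z11])
      (by simp [polar_add_right, -polar_self, pol_self, pc st, e', z11]) hc) hw
    rw [← this]
    simp [polar_add_right, -polar_self, pol_self, pc e, pc e', z11]
  obtain ⟨s', hs', t', ht', sa', ta', qs', qt', -, A'⟩ := h.U1 ns uq ha' (pc aa)
  exact fun c hc => h.tau ha' (pc aa) (pc wa) A' (D s' hs' sa' qs') (D t' ht' ta' qt') hc

theorem U4 (ha : a ∈ Γ) (ha' : a' ∈ Γ) (aa : polar q a a' = 1) (qw : q w = 1) (hw : ∀ c ∈ C a, polar q c w = 0)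
    (hw' : ∀ c ∈ C a', polar q c w = 0) (hy : y ∈ Γ) (yw : polar q y w = 1) : polar q y a = 0 := z2_ne' fun ya => by
  have A : ∀ x ∈ Γ, (∀ c ∈ C x, polar q c w = 0) → polar q y x = 1 → q (w + x) = 1 ∧ ∀ c ∈ C y, polar q c (w + x) = 0 :=
    fun x hx k e => by
      have : q (w + x) = 1 := by rw [quad_add, qw, h.sing hx, pc (k x (h.Cs hx)), add_zero, add_zero]
      exact ⟨this, h.U3 ns uq hx hy (pc e) this (pc (by rw [polar_add_right, yw, e, z11]))
        fun c hc => by rw [polar_add_right, k c hc, h.Cp hx hc, add_zero]⟩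
  have B : ∀ x ∈ Γ, (∀ c ∈ C x, polar q c w = 0) → polar q y x = 1 → x = a := fun x hx k e => by
    obtain ⟨h1, h2⟩ := A x hx k e
    obtain ⟨h3, h4⟩ := A a ha hw ya
    have wa := pc (hw a (h.Cs ha))
    rcases z2 (polar q x a) with l | l
    · simpa using h.U2 ns uq hy ya h1 h3 (by rw [polar_add_left, wa, l, add_zero])
        (by rw [polar_add_left, wa, pol_self, add_zero]) h2 h4
    · have := h.U2 ns uq hy ya (v := w + x + y) (by rw [quad_add, h1, h.sing hy, pc (h2 y (h.Cs hy))]; rfl) h3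
        (by simp [polar_add_left, wa, l, ya, z11]) (by rw [polar_add_left, wa, pol_self, add_zero])
        (fun c hc => by rw [polar_add_right, h2 c hc, h.Cp hy hc, add_zero]) h4
      rw [add_assoc, add_right_inj] at this
      have qa := h.sing ha
      rw [← this, quad_add, h.sing hx, h.sing hy, pc e] at qa
      exact (z01 qa.symm).elim
  have E : ∀ c ∈ C a', polar q c a = 0 → polar q y (c + q c • a') = 0 → c = 0 := fun c hc ca e => by
    have m := h.sgN ha' hc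
    obtain ⟨l, hl, -, l2⟩ := h.inv m
    have e1 : sg q a' c a = a + (c + q c • a') := by rw [sg_one aa, pc ca, zero_add, add_assoc]
    have := B _ (h.oΓ m ha) (fun d hd => by
      have := h.oC m (h.oΓ m ha) hd
      rw [sg_invol (h.sing ha') (h.Cp ha' hc)] at this
      rw [← h.pol m, sg_fix (pc (hw' _ (h.Cs ha'))) (pc (hw' c hc)), hw _ this]) (by rw [e1, polar_add_right, e, ya, add_zero])
    rw [e1, add_eq_left] at this
    have k := congrArg (polar q · a) this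
    simp only [polar_add_left, polar_smul_left, ca, pc aa, polar_zero_left, smul_eq_mul, mul_one, zero_add] at k
    simpa [k] using this
  obtain ⟨s, hs, t, ht, sa, ta, qs, qt, st, -⟩ := h.U1 ns uq ha' (pc aa)
  have s0 : s ≠ 0 := fun l => z01 (by rw [← st, l, polar_zero_left])
  have t0 : t ≠ 0 := fun l => z01 (by rw [← st, l, polar_zero_right])
  have y1 : polar q y s = 1 := z2_ne fun l => s0 (E s hs sa (by simpa [qs] using l))
  have y2 : polar q y t = 1 := z2_ne fun l => t0 (E t ht ta (by simpa [qt] using l))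
  have y3 : polar q y a' = 0 := z2_ne' fun l => z01 (by rw [← aa, B a' ha' hw' l, pol_self])
  have := E _ (h.Ca ha' hs ht) (by rw [polar_add_left, sa, ta, add_zero])
    (by simp [polar_add_right, polar_smul_right, y1, y2, y3, z11])
  exact z01 (by rw [← st, add_eq_zero'.1 this, pol_self])

theorem caseU (ha : a ∈ Γ) : False := by
  obtain ⟨a', ha', aa⟩ := h.opp ha
  obtain ⟨s, hs, t, ht, sa, ta, qs, qt, st, A⟩ := h.U1 ns uq ha aa
  have sb := h.Cp ha hs
  have tb := h.Cp ha ht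
  obtain ⟨u, u0, hu⟩ := h.ex_perp a a' s t
  obtain ⟨w, ⟨w1, w2, w3, w4⟩, qw⟩ := h.ex_ns
    (fun v => polar q v a = 0 ∧ polar q v a' = 0 ∧ polar q v s = 0 ∧ polar q v t = 0)
    (fun u v k l => by simp [polar_add_left, k, l]) hu u0 fun v =>
    ⟨v + polar q v a' • a + polar q v a • a' + polar q v t • s + polar q v s • t, by
      simp [polar_add_left, polar_smul_left, -polar_self, pol_self, aa, pc aa, sa, ta, sb, tb, pc sa, pc ta, pc sb,
        pc tb, st, pc st, CharTwo.add_self_eq_zero],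
      by simp [polar_add_left, polar_smul_left, pc hu.1, pc hu.2.1, pc hu.2.2.1, pc hu.2.2.2]⟩
  have hw : ∀ c ∈ C a, polar q c w = 0 := fun c hc => h.tau ha aa (pc w1) A (pc w3) (pc w4) hc
  have hw' := h.U3 ns uq ha ha' aa qw w2 hw
  have Y : ∀ y ∈ Γ, polar q y w = 1 → polar q y a = 0 ∧ polar q y a' = 0 := fun y hy e =>
    ⟨h.U4 ns uq ha ha' aa qw hw hw' hy e, h.U4 ns uq ha' ha (pc aa) qw hw' hw hy e⟩
  obtain ⟨k, hk, yw⟩ := h.irr ha (w := w) fun l => z01 (by rw [← qw, l, map_zero])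
  have hy := h.oΓ hk ha
  generalize k a = y at yw hy
  obtain ⟨c, hc, qc⟩ := ns y hy
  have B : ∀ x ∈ Γ, polar q x w = 0 → polar q x y = 0 → polar q x a = 1 ∨ polar q x a' = 1 → polar q x c = 0 :=
    fun x hx x1 x2 x3 => z2_ne' fun l => by
      have := h.oΓ (h.sgN hy hc) hx
      rw [sg_perp x2, l, one_smul] at this
      have k := Y _ this (by rw [polar_add_left, x1, yw, zero_add])
      simp only [polar_add_left, Y y hy yw, add_zero] at k
      exact x3.elim (fun m => z01 (k.1.symm.trans m)) fun m => z01 (k.2.symm.trans m)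
  have c1 := B a ha (pc w1) (pc (Y y hy yw).1) (.inr aa)
  have c2 := B a' ha' (pc w2) (pc (Y y hy yw).2) (.inl (pc aa))
  have D : ∀ s ∈ C a, polar q s a' = 0 → q s = 0 → polar q s c = 0 := fun s hs sa qs => by
    have m := h.sgN ha hs
    have e : sg q a s a' = a' + s := by rw [sg_one (pc aa), pc sa, qs]; simp
    have hx := h.oΓ m ha'
    rw [e] at hx
    have xa : polar q (a' + s) a = 1 := by rw [polar_add_left, pc aa, h.Cp ha hs, add_zero]
    have xw : polar q (a' + s) w = 0 := by rw [polar_add_left, pc w2, hw s hs, add_zero]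
    have := B _ hx xw (pc (h.U4 ns uq hx ha xa qw (h.U3 ns uq ha hx (pc xa) qw (pc xw) hw) hw hy yw)) (.inl xa)
    rwa [polar_add_left, c2, zero_add] at this
  have := h.U2 ns uq ha aa qc qw (pc c2) w2 (fun d hd => h.tau ha aa c1 A (D s hs sa qs) (D t ht ta qt) hd) hw
  exact z01 ((h.Cp hy hc).symm.trans (this ▸ pc yw))

end

theorem typ (ha : a ∈ Γ) : (∀ f ∈ F a, f = 0 ∨ f = a) ∨ ∀ c ∈ C a, q c = 0 := by
  by_contra! l
  obtain ⟨⟨f, hf, f0, fa⟩, c, hc, qc⟩ := l
  have r := h.restrict ha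
  have m : a ∈ {b | ∃ k ∈ N, k a = b} := ⟨_, h.idN ha, rfl⟩
  by_cases two : ∃ c ∈ C a, ∃ d ∈ C a, q c = 1 ∧ q d = 1 ∧ d ≠ c ∧ d ≠ c + a
  · obtain ⟨c, hc, d, hd, qc, qd, n1, n2⟩ := two
    refine r.caseM m ?_ ?_ <;> rintro _ ⟨k, hk, rfl⟩
    · exact ⟨_, h.oF hk ha hf, fun e => f0 (h.inj hk (e.trans (h.zero hk).symm)), fun e => fa (h.inj hk e)⟩
    · exact ⟨_, h.oC hk ha hc, _, h.oC hk ha hd, (h.iso hk c).trans qc, (h.iso hk d).trans qd,
        fun e => n1 (h.inj hk e), fun e => n2 (h.inj hk (e.trans (h.lin hk c a).symm))⟩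
  · push Not at two
    refine r.caseU ?_ ?_ m <;> rintro _ ⟨k, hk, rfl⟩
    · exact ⟨_, h.oC hk ha hc, (h.iso hk c).trans (z2_ne qc)⟩
    · intro c hc d hd qc qd
      obtain ⟨l, hl, l1, l2⟩ := h.inv hk
      have := two _ (l1 a ▸ h.oC hl (h.oΓ hk ha) hc) _ (l1 a ▸ h.oC hl (h.oΓ hk ha) hd) ((h.iso hl c).trans qc)
        ((h.iso hl d).trans qd)
      refine or_iff_not_imp_left.2 fun n => h.inj hl ?_
      rw [this fun e => n (h.inj hl e), h.lin hl, l1]

end OS

end CF.XG
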