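import Cfsg.Agent.XG.O

/-! Width three: the two surviving configurations. -/

set_option autoImplicit false
set_option linter.unusedSectionVars false

namespace CF.XG

open Cfsg CF.Geom QuadraticMap Module

variable {V : Type*} [AddCommGroup V] [Module (ZMod 2) V] {q : QuadraticForm (ZMod 2) V}
  {a a' b c c' s s' t u v w x x' y : V} {W W' : Set V} {e d : Fin 3 → V}

/-- a pair of complementary totally singular planes with dual bases -/
structure Dual (q : QuadraticForm (ZMod 2) V) (W W' : Set V) (e d : Fin 3 → V) : Prop extends Six q where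
  add : ∀ {u v}, u ∈ W → v ∈ W → u + v ∈ W
  add' : ∀ {u v}, u ∈ W' → v ∈ W' → u + v ∈ W'
  sing : ∀ {u}, u ∈ W → q u = 0
  sing' : ∀ {u}, u ∈ W' → q u = 0
  sum : ∀ v, ∃ w ∈ W, ∃ w' ∈ W', v = w + w'
  eW : ∀ i, e i ∈ W
  dW : ∀ i, d i ∈ W'
  dual : ∀ i j, polar q (e i) (d j) = if i = j then 1 else 0

theorem Six.sep2 (h : Six q) (hu : ∀ i j : ZMod 2, u ≠ i • s + j • t) :
    ∃ x, polar q x s = 0 ∧ polar q x t = 0 ∧ polar q x u = 1 := by
  by_cases k : t = 0 ∨ t = s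
  · obtain ⟨x, h1, h2⟩ := h.sep (t := u) (u := s) (by simpa using hu 0 0) (by simpa using hu 1 0)
    exact ⟨x, h1, by rcases k with rfl | rfl <;> simp [h1], h2⟩
  push Not at k
  obtain ⟨x, h1, h2⟩ := h.sep k.1 k.2
  obtain ⟨y, h3, h4⟩ := h.sep (t := u + polar q x u • t) (u := s) (fun l => hu 0 _ (by simpa using add_eq_iff.1 l))
    fun l => hu 1 _ (by simpa using add_eq_iff.1 l)
  refine ⟨y + polar q y t • x, ?_, ?_, ?_⟩ <;>
    simp only [polar_add_left, polar_add_right, polar_smul_left, polar_smul_right, smul_eq_mul, h1, h2, h3] at h4 ⊢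
  · simp
  · simp [CharTwo.add_self_eq_zero]
  · rwa [mul_comm]

namespace Dual
variable (D : Dual q W W' e d)
include D

theorem symm : Dual q W' W d e :=
  { D with add := D.add', add' := D.add, sing := D.sing', sing' := D.sing, eW := D.dW, dW := D.eW
           sum := fun v => by obtain ⟨w, h1, w', h2, rfl⟩ := D.sum v; exact ⟨w', h2, w, h1, add_comm _ _⟩
           dual := fun i j => by rw [polar_comm, D.dual]; simp only [eq_comm] }

theorem zero : 0 ∈ W := vv (e 0) ▸ D.add (D.eW 0) (D.eW 0)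
theorem smul (hu : u ∈ W) (t : ZMod 2) : t • u ∈ W := by rcases z2 t with rfl | rfl <;> simp [hu, D.zero]
theorem WW (hu : u ∈ W) (hv : v ∈ W) : polar q u v = 0 := pol_of_q (D.sing hu) (D.sing hv) (D.sing (D.add hu hv))

theorem comp (x : V) : ∃ x' ∈ W', ∀ w ∈ W, polar q x' w = polar q x w := by
  obtain ⟨w, h1, w', h2, rfl⟩ := D.sum x
  exact ⟨w', h2, fun v hv => by rw [polar_add_left, D.WW h1 hv, zero_add]⟩

theorem span (k : ∀ i, polar q v (e i) = 0) : ∃ i j k : ZMod 2, v = i • e 0 + j • e 1 + k • e 2 :=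
  D.span3 (D.WW (D.eW 1) (D.eW 0)) (D.WW (D.eW 2) (D.eW 0)) (D.WW (D.eW 2) (D.eW 1)) (pc (D.dual 0 0))
    (pc (D.dual 0 1)) (pc (D.dual 0 2)) (pc (D.dual 1 1)) (pc (D.dual 1 2)) (pc (D.dual 2 2)) (k 0) (k 1) (k 2)

theorem ext6 (k : ∀ i, polar q v (e i) = 0) (l : ∀ i, polar q v (d i) = 0) : v = 0 := by
  obtain ⟨i, j, m, rfl⟩ := D.span k
  have h0 := l 0
  have h1 := l 1
  have h2 := l 2
  simp [polar_add_left, polar_smul_left, D.dual] at h0 h1 h2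
  simp [h0, h1, h2]

theorem inter (hu : u ∈ W) (hu' : u ∈ W') : u = 0 :=
  D.ext6 (fun i => D.WW hu (D.eW i)) fun i => D.symm.WW hu' (D.dW i)

theorem one (hu : u ∈ W) (u0 : u ≠ 0) : ∃ x ∈ W', polar q x u = 1 := by
  obtain ⟨x, hx⟩ := D.toSix.one u0
  obtain ⟨y, hy, k⟩ := D.comp x
  exact ⟨y, hy, (k u hu).trans hx⟩

theorem sep (hu : u ∈ W) (ht : t ∈ W) (t0 : t ≠ 0) (n : t ≠ u) : ∃ x ∈ W', polar q x u = 0 ∧ polar q x t = 1 := by
  obtain ⟨x, h1, h2⟩ := D.toSix.sep t0 n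
  obtain ⟨y, hy, k⟩ := D.comp x
  exact ⟨y, hy, (k u hu).trans h1, (k t ht).trans h2⟩

theorem third (f : V → ZMod 2) (hf : ∀ u ∈ W, ∀ v ∈ W, f (u + v) = f u + f v) (hx : x ∈ W) :
    ∃ s ∈ W, f s = 0 ∧ s ≠ 0 ∧ s ≠ x := by
  by_contra! k
  have A : ∀ i j, i ≠ j → ∃ s ∈ W, f s = 0 ∧ s ≠ 0 ∧ ∀ l, l ≠ i → l ≠ j → polar q s (d l) = 0 := fun i j n => by
    have B : ∀ i, e i ≠ 0 := fun i l => by simpa [l] using D.dual i i
    rcases z2 (f (e i)) with h1 | h1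
    · exact ⟨_, D.eW i, h1, B i, fun l l1 _ => by simp [D.dual, l1.symm]⟩
    rcases z2 (f (e j)) with h2 | h2
    · exact ⟨_, D.eW j, h2, B j, fun l _ l1 => by simp [D.dual, l1.symm]⟩
    refine ⟨_, D.add (D.eW i) (D.eW j), by rw [hf _ (D.eW i) _ (D.eW j), h1, h2, z11], fun l => ?_,
      fun l l1 l2 => by simp [polar_add_left, D.dual, l1.symm, l2.symm]⟩
    simpa [← add_eq_zero'.1 l, D.dual, n] using D.dual j j
  obtain ⟨s, h1, h2, h3, h4⟩ := A 0 1 (by decide)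
  obtain ⟨t, k1, k2, k3, k4⟩ := A 0 2 (by decide)
  obtain ⟨u, l1, l2, l3, l4⟩ := A 1 2 (by decide)
  obtain rfl := k s h1 h2 h3
  rw [k t k1 k2 k3] at k4
  rw [k u l1 l2 l3] at l4
  refine h3 (D.ext6 (fun i => D.WW hx (D.eW i)) fun i => ?_)
  fin_cases i
  exacts [l4 0 (by decide) (by decide), k4 1 (by decide) (by decide), h4 2 (by decide) (by decide)]

theorem sg_W (hx : x ∈ W) (hs : s ∈ W') (hw : w ∈ W) : sg q x s w = w + polar q w s • x := sg_perp (D.WW hw hx)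

theorem sg_W' (hs : s ∈ W') (hw : w ∈ W') : sg q x s w = w + polar q w x • s := by
  simp [sg, D.symm.WW hw hs, D.sing' hs]

section
variable {θ : V → V} (lin : ∀ u v, θ (u + v) = θ u + θ v) (pol : ∀ u v, polar q (θ u) (θ v) = polar q u v)
  (sw : ∀ w ∈ W, θ w ∈ W') (θθ : ∀ v, θ (θ v) = v)
include lin pol sw θθ

theorem beta : (∃ w ∈ W, polar q w (θ w) = 1) ∧ (∃ w ∈ W, w ≠ 0 ∧ polar q w (θ w) = 0) ∧
    ∀ u ∈ W, polar q u (θ u) = 0 → (∀ w ∈ W, polar q w (θ w) = 0 → polar q w (θ u) = 0) → u = 0 := by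
  have sy : ∀ u v, polar q u (θ v) = polar q v (θ u) := fun u v => by rw [← pol, θθ, polar_comm]
  have z : θ 0 = 0 := by rw [← vv 0, lin, vv, vv]
  have sm : ∀ (t : ZMod 2) v, θ (t • v) = t • θ v := fun t v => by rcases z2 t with rfl | rfl <;> simp [z]
  have nd : ∀ u ∈ W, (∀ i, polar q (e i) (θ u) = 0) → u = 0 := fun u hu k => by
    rw [← θθ u, D.ext6 (fun i => pc (k i)) fun i => D.symm.WW (sw u hu) (D.dW i), z]
  have m : ∀ i j k : ZMod 2, i • e 0 + j • e 1 + k • e 2 ∈ W := fun i j k =>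
    D.add (D.add (D.smul (D.eW 0) i) (D.smul (D.eW 1) j)) (D.smul (D.eW 2) k)
  have nd' : ∀ i j k : ZMod 2, (∀ l, polar q (e l) (θ (i • e 0 + j • e 1 + k • e 2)) = 0) → i = 0 ∧ j = 0 ∧ k = 0 :=
    fun i j k l => by
      have := fun n => congrArg (polar q · (d n)) (nd _ (m i j k) l)
      exact ⟨by simpa [polar_add_left, polar_smul_left, D.dual] using this 0,
        by simpa [polar_add_left, polar_smul_left, D.dual] using this 1,
        by simpa [polar_add_left, polar_smul_left, D.dual] using this 2⟩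
  obtain ⟨s, h1, h2, h3, -⟩ := D.third (fun w => polar q w (θ w))
    (fun u _ v _ => by
      simp only [lin, polar_add_left, polar_add_right, sy u v]
      generalize polar q u (θ u) = i, polar q v (θ u) = j, polar q v (θ v) = k
      revert i j k; decide) D.zero
  refine ⟨?_, ⟨s, h1, h3, h2⟩, fun u hu k l => ?_⟩
  · by_contra! k
    have := fun i => z2_ne' (k _ (D.eW i))
    simp only [Fin.forall_fin_succ, lin, sm, polar_add_right, polar_smul_right, smul_eq_mul, IsEmpty.forall_iff,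
      Fin.succ_zero_eq_one, Fin.succ_one_eq_two, this, sy (e 1) (e 0), sy (e 2) (e 0), sy (e 2) (e 1)] at nd'
    generalize polar q (e 0) (θ (e 1)) = i, polar q (e 0) (θ (e 2)) = j, polar q (e 1) (θ (e 2)) = l at nd'
    revert i j l; decide
  · obtain ⟨i, j, n, rfl⟩ := D.span fun i => D.WW hu (D.eW i)
    have l' := fun i j k => l _ (m i j k)
    suffices i = 0 ∧ j = 0 ∧ n = 0 by simp [this]
    simp only [Fin.forall_fin_succ, lin, sm, polar_add_left, polar_smul_left, polar_add_right, polar_smul_right,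
      smul_eq_mul, IsEmpty.forall_iff, Fin.succ_zero_eq_one, Fin.succ_one_eq_two, sy (e 1) (e 0), sy (e 2) (e 0),
      sy (e 2) (e 1)] at nd' l' k
    generalize polar q (e 0) (θ (e 1)) = b1, polar q (e 0) (θ (e 2)) = b2, polar q (e 1) (θ (e 2)) = b3,
      polar q (e 0) (θ (e 0)) = c1, polar q (e 1) (θ (e 1)) = c2, polar q (e 2) (θ (e 2)) = c3 at nd' l' k
    clear hu l
    revert i j n b1 b2 b3 c1 c2 c3; decide +kernel

end

end Dual

/-- the configuration of two dual planes interchanged by the centralizer -/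
structure TS (q : QuadraticForm (ZMod 2) V) (Γ : Set V) (N : Set (V → V)) (W W' : Set V) (e d : Fin 3 → V) : Prop
    extends Dual q W W' e d where
  sub : ∀ {y}, y ∈ Γ → y ∈ W ∨ y ∈ W'
  act : ∀ {g}, g ∈ N → (∀ w ∈ W, g w ∈ W) ∧ (∀ w ∈ W', g w ∈ W') ∨ (∀ w ∈ W, g w ∈ W') ∧ ∀ w ∈ W', g w ∈ W
  theta : ∃ θ ∈ N, (∀ w ∈ W, θ w ∈ W') ∧ ∀ v, θ (θ v) = v

namespace OS
variable {Γ : Set V} {C F : V → Set V} {N : Set (V → V)} (h : OS q Γ C F N) {k : V → V}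
include h

theorem caseE (ha : a ∈ Γ) (E : ∀ f ∈ F a, f = 0 ∨ f = a) (y0 : y ≠ 0) (qy : q y = 0) :
    y ∈ Γ ∧ (∀ f ∈ F y, f = 0 ∨ f = y) ∧ ∀ c, polar q c y = 0 → c ∈ C y := by
  have A : ∀ a ∈ Γ, (∀ f ∈ F a, f = 0 ∨ f = a) → ∀ c, polar q c a = 0 → c ∈ C a := fun a ha E c hc => by
    obtain ⟨u, hu, f, hf, rfl⟩ := h.dec ha hc
    rcases E f hf with rfl | rfl
    exacts [by rwa [add_zero], h.Ca ha hu (h.Cs ha)]
  have B : ∀ a ∈ Γ, (∀ f ∈ F a, f = 0 ∨ f = a) → ∀ k ∈ N, ∀ f ∈ F (k a), f = 0 ∨ f = k a := fun a ha E k hk f hf => by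
    obtain ⟨l, hl, l1, l2⟩ := h.inv hk
    exact (E _ (l1 a ▸ h.oF hl (h.oΓ hk ha) hf)).imp (fun e => h.inj hl (e.trans (h.zero hl).symm))
      fun e => h.inj hl (e.trans (l1 a).symm)
  have T : ∀ a ∈ Γ, (∀ f ∈ F a, f = 0 ∨ f = a) → ∀ b ∈ Γ, (∀ f ∈ F b, f = 0 ∨ f = b) → polar q b a = 1 →
      ∀ x, q x = 0 → polar q x a = 1 → x ∈ Γ ∧ ∀ f ∈ F x, f = 0 ∨ f = x := fun a ha E b hb E' ba x qx xa => by
    have m := h.sgN ha (A a ha E (b + x) (by rw [polar_add_left, ba, xa, z11]))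
    have : sg q a (b + x) b = x := by
      rw [sg_one ba, vv', polar_add_right, pol_self, quad_add, qx, h.sing hb]
      simp [CharTwo.add_self_eq_zero]
    exact this ▸ ⟨h.oΓ m hb, B b hb E' _ m⟩
  obtain ⟨k, hk, ka⟩ := h.irr ha (h.ne ha)
  obtain ⟨v, va, vy⟩ := h.both (h.ne ha) y0
  by_cases ya : polar q y a = 1
  · obtain ⟨h1, h2⟩ := T a ha E _ (h.oΓ hk ha) (B a ha E k hk) ka y qy ya
    exact ⟨h1, h2, A y h1 h2⟩
  have xa : polar q (v + q v • a) a = 1 := by rw [polar_add_left, polar_smul_left, pol_self, va, smul_zero, add_zero]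
  obtain ⟨h1, h2⟩ := T a ha E _ (h.oΓ hk ha) (B a ha E k hk) ka (v + q v • a)
    (by simp [quad_add, q_smul, polar_smul_right, h.sing ha, va, CharTwo.add_self_eq_zero]) xa
  obtain ⟨h3, h4⟩ := T _ h1 h2 a ha E (pc xa) y qy
    (by rw [polar_add_right, polar_smul_right, z2_ne' ya, pc vy, smul_zero, add_zero])
  exact ⟨h3, h4, A y h3 h4⟩

section
variable (D : Dual q W W' e d)
include D

theorem step (hx : x ∈ W') (gx : x ∈ Γ ∧ ∀ w ∈ W, polar q w x = 0 → w ∈ C x) (hs : s ∈ W) (sx : polar q s x = 0)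
    (hv : v ∈ W) (gv : v ∈ Γ ∧ ∀ w ∈ W', polar q w v = 0 → w ∈ C v) (vx : polar q v x = 1) :
    v + s ∈ Γ ∧ ∀ w ∈ W', polar q w (v + s) = 0 → w ∈ C (v + s) := by
  have m := h.sgN gx.1 (gx.2 s hs sx)
  have e1 : sg q x s v = v + s := by rw [D.symm.sg_W' hs hv, vx, one_smul]
  have i := sg_invol (h.sing gx.1) sx
  refine ⟨e1 ▸ h.oΓ m gv.1, fun w hw k => ?_⟩
  have := h.oC m gv.1 (gv.2 (sg q x s w) (D.symm.sg_W hx hs hw ▸ D.add' hw (D.symm.smul hx _))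
    (by rw [← h.pol m, i, e1, k]))
  rwa [i, e1] at this

theorem good (ha : a ∈ W) (ga : a ∈ Γ ∧ ∀ w ∈ W', polar q w a = 0 → w ∈ C a) (ha' : a' ∈ W')
    (ga' : a' ∈ Γ ∧ ∀ w ∈ W, polar q w a' = 0 → w ∈ C a') (aa : polar q a a' = 1) (hv : v ∈ W) (v0 : v ≠ 0) :
    v ∈ Γ ∧ ∀ w ∈ W', polar q w v = 0 → w ∈ C v := by
  rcases z2 (polar q v a') with l | l
  · obtain ⟨r, hr, rv⟩ := D.one hv v0
    obtain ⟨x, hx, xa, xv⟩ : ∃ x ∈ W', polar q x a = 1 ∧ polar q x v = 1 := by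
      rcases z2 (polar q r a) with m | m
      · exact ⟨_, D.add' hr ha', by rw [polar_add_left, m, pc aa, zero_add], by rw [polar_add_left, rv, pc l, add_zero]⟩
      · exact ⟨r, hr, m, rv⟩
    have := h.step D.symm ha ga (D.add' ha' hx) (by rw [polar_add_left, pc aa, xa, z11]) ha' ga' (pc aa)
    rw [vv'] at this
    have := h.step D hx this (D.add ha hv) (by rw [polar_add_left, pc xa, pc xv, z11]) ha ga (pc xa)
    rwa [vv'] at this
  · have := h.step D ha' ga' (D.add ha hv) (by rw [polar_add_left, aa, l, z11]) ha ga aa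
    rwa [vv'] at this

variable (Z : ∀ a ∈ Γ, ∀ c ∈ C a, q c = 0)
  (g1 : ∀ v ∈ W, v ≠ 0 → v ∈ Γ ∧ ∀ w ∈ W', polar q w v = 0 → w ∈ C v)
  (g2 : ∀ v ∈ W', v ≠ 0 → v ∈ Γ ∧ ∀ w ∈ W, polar q w v = 0 → w ∈ C v)
include Z g1 g2

omit D g1 g2 in
theorem CC (ha : a ∈ Γ) (hc : c ∈ C a) (hc' : c' ∈ C a) : polar q c c' = 0 :=
  pol_of_q (Z a ha c hc) (Z a ha c' hc') (Z a ha _ (h.Ca ha hc hc'))

theorem subZ (hy : y ∈ Γ) : y ∈ W ∨ y ∈ W' := by
  obtain ⟨x, hx, x', hx', rfl⟩ := D.sum y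
  by_contra! n
  have x0 : x ≠ 0 := fun l => n.2 (by rwa [l, zero_add])
  have x0' : x' ≠ 0 := fun l => n.1 (by rwa [l, add_zero])
  have xx := pol_of_q (D.sing hx) (D.sing' hx') (h.sing hy)
  obtain ⟨s, hs, sx, s0, sx'⟩ := D.third (polar q · x') (fun u _ v _ => polar_add_left q u v x') hx
  obtain ⟨t, ht, tx, ts⟩ := D.sep hx hs s0 sx'
  have m1 := h.sgN (g1 x hx x0).1 ((g1 x hx x0).2 t ht tx)
  have m2 := h.sgN (g2 x' hx' x0').1 ((g2 x' hx' x0').2 s hs sx)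
  have e1 : sg q x t (x + x') = x + x' := sg_fix (by rw [polar_add_left, pol_self, pc xx, add_zero])
    (by rw [polar_add_left, pc tx, D.symm.WW hx' ht, add_zero])
  have e2 : sg q x' s (x + x') = x + x' := sg_fix (by rw [polar_add_left, pol_self, xx, add_zero])
    (by rw [polar_add_left, pc sx, D.WW hx hs, add_zero])
  have A : ∀ A : Set V, (∀ u ∈ A, ∀ v ∈ A, u + v ∈ A) → (∀ u ∈ A, ∀ v ∈ A, polar q u v = 0) → x + x' ∈ A →
      (∀ u ∈ A, sg q x t u ∈ A) → (∀ u ∈ A, sg q x' s u ∈ A) → ∀ u ∈ A, polar q u x = 0 :=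
    fun A add ort hy i1 i2 u hu => z2_ne' fun l => by
      have a1 := add _ hu _ (i1 u hu)
      rw [sg_one l, add_assoc, vv', D.sing' ht, add_zero] at a1
      have a2 := add _ a1 _ (i2 _ a1)
      rw [sg_perp (by rw [polar_add_left, polar_smul_left, xx, D.symm.WW ht hx', smul_zero, add_zero]), vv',
        polar_add_left, polar_smul_left, ts, D.WW hx hs, smul_zero, add_zero, one_smul] at a2
      have a3 := add _ hy _ a2
      rw [vv''] at a3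
      exact z01 ((ort _ hu _ a3).symm.trans l)
  obtain ⟨v, v1, v2⟩ := h.sep x0 (u := x + x') (by simpa using x0')
  obtain ⟨c, hc, f, hf, rfl⟩ := h.dec hy v1
  rw [polar_add_left, A (C _) (fun _ k _ l => h.Ca hy k l) (fun _ k _ l => h.CC Z hy k l) (h.Cs hy)
    (fun u hu => e1 ▸ h.oC m1 hy hu) (fun u hu => e2 ▸ h.oC m2 hy hu) c hc, A (F _) (fun _ k _ l => h.Fa hy k l)
    (fun _ k _ l => h.FF hy k l) (h.Fs hy) (fun u hu => e1 ▸ h.oF m1 hy hu) (fun u hu => e2 ▸ h.oF m2 hy hu) f hf] at v2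
  exact z01 v2

omit g2 in
theorem oppZ (hx : x ∈ Γ) (hx' : x' ≠ 0) (n : x' ≠ x) (l : polar q x' x = 0 → x' ∈ C x) (hk : k ∈ N)
    (k1 : k x ∈ W) (k2 : k x' ∈ W) : False := by
  have := h.oC hk hx (l ((h.pol hk _ _).symm.trans (D.WW k2 k1)))
  obtain ⟨t, ht, t1, t2⟩ := D.sep k1 k2 (fun e => hx' (h.inj hk (e.trans (h.zero hk).symm))) fun e => n (h.inj hk e)
  exact z01 ((h.CC Z (h.oΓ hk hx) ((g1 _ k1 (h.ne (h.oΓ hk hx))).2 t ht t1) this).symm.trans t2)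

theorem actZ (hk : k ∈ N) :
    (∀ w ∈ W, k w ∈ W) ∧ (∀ w ∈ W', k w ∈ W') ∨ (∀ w ∈ W, k w ∈ W') ∧ ∀ w ∈ W', k w ∈ W := by
  have A : ∀ x ∈ W, x ≠ 0 → ∀ y ∈ W', y ≠ 0 → ¬ (k x ∈ W ∧ k y ∈ W) ∧ ¬ (k x ∈ W' ∧ k y ∈ W') := fun x hx x0 y hy y0 =>
    ⟨fun l => h.oppZ D Z g1 (g1 x hx x0).1 y0 (fun e => y0 (D.inter (e ▸ hx) hy)) ((g1 x hx x0).2 y hy) hk l.1 l.2,
      fun l => h.oppZ D.symm Z g2 (g1 x hx x0).1 y0 (fun e => y0 (D.inter (e ▸ hx) hy)) ((g1 x hx x0).2 y hy) hk l.1 l.2⟩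
  have S : ∀ x, x ∈ W ∨ x ∈ W' → x ≠ 0 → k x ∈ W ∨ k x ∈ W' := fun x hx x0 =>
    h.subZ D Z g1 g2 (h.oΓ hk (hx.elim (fun l => (g1 x l x0).1) fun l => (g2 x l x0).1))
  have e0 : e 0 ≠ 0 := fun l => by simpa [l] using D.dual 0 0
  have d0 : d 0 ≠ 0 := fun l => by simpa [l] using D.dual 0 0
  have z : ∀ {U U' : Set V}, 0 ∈ U' → (∀ w ∈ U, w ≠ 0 → k w ∈ U') → ∀ w ∈ U, k w ∈ U' := fun l m w hw => by
    by_cases w0 : w = 0
    exacts [by rwa [w0, h.zero hk], m w hw w0]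
  rcases S _ (.inl (D.eW 0)) e0 with l | l
  · have B := z D.symm.zero fun w hw w0 => (S w (.inr hw) w0).resolve_left fun m => (A _ (D.eW 0) e0 w hw w0).1 ⟨l, m⟩
    exact .inl ⟨z D.zero fun w hw w0 => (S w (.inl hw) w0).resolve_right fun m =>
      (A w hw w0 _ (D.dW 0) d0).2 ⟨m, B _ (D.dW 0)⟩, B⟩
  · have B := z D.zero fun w hw w0 => (S w (.inr hw) w0).resolve_right fun m => (A _ (D.eW 0) e0 w hw w0).2 ⟨l, m⟩
    exact .inr ⟨z D.symm.zero fun w hw w0 => (S w (.inl hw) w0).resolve_left fun m =>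
      (A w hw w0 _ (D.dW 0) d0).1 ⟨m, B _ (D.dW 0)⟩, B⟩

omit Z g2 in
theorem mv (hs : s ∈ W) (ht : t ∈ W) (hu : u ∈ W) (hv : v ∈ W) (nu : ∀ i j : ZMod 2, u ≠ i • s + j • t)
    (nv : ∀ i j : ZMod 2, v ≠ i • s + j • t) :
    ∃ k ∈ N, (∀ w ∈ W, k w ∈ W) ∧ (∀ w ∈ W', k w ∈ W') ∧ k s = s ∧ k t = t ∧ k u = v := by
  by_cases uv : u = v
  · exact ⟨_, h.idN (g1 u hu (by simpa using nu 0 0)).1, fun _ l => l, fun _ l => l, rfl, rfl, uv⟩
  obtain ⟨x, x1, x2, x3, x4⟩ : ∃ x, polar q x s = 0 ∧ polar q x t = 0 ∧ polar q x u = 1 ∧ polar q x v = 1 := by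
    obtain ⟨x, x1, x2, x3⟩ := h.sep2 nu
    obtain ⟨y, y1, y2, y3⟩ := h.sep2 nv
    rcases z2 (polar q x v) with l | l
    · rcases z2 (polar q y u) with m | m
      · exact ⟨x + y, by simp [polar_add_left, *], by simp [polar_add_left, *], by simp [polar_add_left, *],
          by simp [polar_add_left, *]⟩
      · exact ⟨y, y1, y2, m, y3⟩
    · exact ⟨x, x1, x2, x3, l⟩
  obtain ⟨y, hy, k⟩ := D.comp x
  rw [← k _ hs] at x1; rw [← k _ ht] at x2; rw [← k _ hu] at x3; rw [← k _ hv] at x4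
  have m := D.add hu hv
  obtain ⟨m1, m2⟩ := g1 _ m fun l => uv (add_eq_zero'.1 l)
  refine ⟨_, h.sgN m1 (m2 y hy (by rw [polar_add_right, x3, x4, z11])),
    fun w hw => D.sg_W m hy hw ▸ D.add hw (D.smul m _),
    fun w hw => D.sg_W' hy hw ▸ D.add' hw (D.symm.smul hy _), ?_, ?_, ?_⟩
  · rw [D.sg_W m hy hs, pc x1, zero_smul, add_zero]
  · rw [D.sg_W m hy ht, pc x2, zero_smul, add_zero]
  · rw [D.sg_W m hy hu, pc x3, one_smul, vv']

omit Z g2 in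
theorem thetaZ (hk : k ∈ N) (k1 : ∀ w ∈ W, k w ∈ W') (k2 : ∀ w ∈ W', k w ∈ W) :
    ∃ θ ∈ N, (∀ w ∈ W, θ w ∈ W') ∧ ∀ v, θ (θ v) = v := by
  have li : ∀ {g}, g ∈ N → ∀ l m n, l ≠ m → l ≠ n → ∀ i j : ZMod 2, g (d l) ≠ i • g (d m) + j • g (d n) :=
    fun {g} hg l m n h1 h2 i j c => by
      have := congrArg (polar q (g (e l))) c
      simp [polar_add_right, polar_smul_right, h.pol hg, D.dual, h1, h2] at this
  have li' : ∀ l m n, l ≠ m → l ≠ n → ∀ i j : ZMod 2, e l ≠ i • e m + j • e n := fun l m n h1 h2 i j c => by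
    have := congrArg (polar q · (d l)) c
    simp [polar_add_left, polar_smul_left, D.dual, h1.symm, h2.symm] at this
  obtain ⟨p, hp, p1, p0, -, -, p2⟩ := h.mv D g1 D.zero D.zero (k2 _ (D.dW 0)) (D.eW 0)
    (by simpa using li hk 0 1 1 (by decide) (by decide) 0 0) (by simpa using li' 0 1 1 (by decide) (by decide) 0 0)
  obtain ⟨r, hr, r1, r0, r2, -, r3⟩ := h.mv D g1 (D.eW 0) (D.eW 0) (p1 _ (k2 _ (D.dW 1))) (D.eW 1)
    (p2 ▸ li (h.comp hp hk) 1 0 0 (by decide) (by decide)) (li' 1 0 0 (by decide) (by decide))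
  obtain ⟨s, hs, s1, s0, s2, s3, s4⟩ := h.mv D g1 (D.eW 0) (D.eW 1) (r1 _ (p1 _ (k2 _ (D.dW 2)))) (D.eW 2)
    (by simpa only [p2, r2, r3] using li (h.comp hr (h.comp hp hk)) 2 0 1 (by decide) (by decide))
    (li' 2 0 1 (by decide) (by decide))
  have m := h.comp hs (h.comp hr (h.comp hp hk))
  have A : ∀ i, s (r (p (k (d i)))) = e i := fun i => by fin_cases i <;> simp [*]
  have B : ∀ w ∈ W, s (r (p (k w))) ∈ W' := fun w hw => s0 _ (r0 _ (p0 _ (k1 w hw)))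
  generalize hθ : (fun v => s (r (p (k v)))) = θ at m
  replace A : ∀ i, θ (d i) = e i := hθ ▸ A
  replace B : ∀ w ∈ W, θ w ∈ W' := hθ ▸ B
  have E : ∀ i, θ (e i) = d i := fun i => add_eq_zero'.1 (D.ext6
    (fun j => by rw [polar_add_left, ← A j, h.pol m, A j, D.dual, pc (D.dual j i)]; by_cases c : i = j <;> simp [c, eq_comm, z11])
    fun j => D.symm.WW (D.add' (B _ (D.eW i)) (D.dW i)) (D.dW j))
  exact ⟨θ, m, B, fun v => add_eq_zero'.1 (D.ext6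
    (fun i => by rw [polar_add_left, ← A, h.pol m, ← E, h.pol m, E, A, CharTwo.add_self_eq_zero])
    fun i => by rw [polar_add_left, ← E, h.pol m, ← A, h.pol m, A, E, CharTwo.add_self_eq_zero])⟩

end

section
variable (Z : ∀ a ∈ Γ, ∀ c ∈ C a, q c = 0) (ha : a ∈ Γ) (ha' : a' ∈ Γ) (aa : polar q a a' = 1)
include Z ha ha' aa

theorem Z1 (hs : s ∈ C a) (hs' : s ∈ C a') : s = 0 := by
  obtain ⟨t, ht, ta, t0, ts⟩ := h.two0 ha aa s
  obtain ⟨e1, e2⟩ := gg aa (h.Cp ha ht) ta (h.Cp ha hs) (h.Cp ha' hs') (Z a ha t ht) (Z a ha s hs) (h.CC Z ha ht hs)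
  refine h.zero0 ha aa (h.Cp ha hs) (h.Cp ha' hs') (fun c hc _ => h.CC Z ha hc hs) fun f hf fa => z2_ne' fun l => ?_
  have := h.oF (h.ggN ha ha' aa ht hs') ha hf
  simp only [e1, e2 f (h.Fp ha hf) fa, l, one_smul] at this
  have := h.Fa ha hf this
  rw [add_assoc, vv'] at this
  have := h.CF0 ha aa (h.Ca ha (h.Cm ha hs _) ht) this
    (by rw [polar_add_left, polar_smul_left, ta, h.Cp ha' hs', smul_zero, add_zero])
  rw [add_eq_zero'] at this
  rcases z2 (polar q f t) with m | m <;> rw [m] at this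
  exacts [t0 (by simpa using this.symm), ts (by simpa using this.symm)]

omit ha' in
theorem Z2 (hs : s ∈ C a) (ht : t ∈ C a) (ua : polar q u a = 0) (va : polar q v a = 0) (us : polar q u s = 1)
    (vs : polar q v s = 0) (vt : polar q v t = 1) (wa : polar q w a = 0) (ws : polar q w s = 0)
    (wt : polar q w t = 0) : w ∈ C a := by
  obtain ⟨i, j, l, rfl⟩ := h.span3 (h.Cp ha hs) (h.Cp ha ht) (h.CC Z ha ht hs) (pc aa) ua va us vs vt wa ws wt
  exact h.Ca ha (h.Ca ha (h.Cm ha (h.Cs ha) i) (h.Cm ha hs j)) (h.Cm ha ht l)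

theorem Z3 (hs : s ∈ C a) (s0 : s ≠ 0) (sa : polar q s a' = 0) : ∃ c ∈ C a', polar q c a = 0 ∧ polar q c s = 1 := by
  by_contra! k
  obtain ⟨t, ht, ta, t0, -⟩ := h.two0 ha' (pc aa) 0
  obtain ⟨r, hr, ra, r0, rt⟩ := h.two0 ha' (pc aa) t
  obtain ⟨u, u1, -, u2⟩ := h.sep2 (s := a') (t := 0) (u := t) fun i j l => by
    rcases z2 i with rfl | rfl
    exacts [t0 (by simpa using l), z01 (by rw [← ta, l]; simp [pc aa])]
  obtain ⟨v, v1, v2, v3⟩ := h.sep2 (s := a') (t := t) (u := r) fun i j l => by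
    rw [l, polar_add_left, polar_smul_left, polar_smul_left, pc aa, ta, smul_zero, add_zero, smul_eq_mul, mul_one] at ra
    rcases z2 j with rfl | rfl
    exacts [r0 (by simpa [ra] using l), rt (by simpa [ra] using l)]
  exact s0 (h.Z1 Z ha ha' aa hs (h.Z2 Z ha' (pc aa) ht hr u1 v1 u2 v2 v3 sa (pc (z2_ne' (k t ht ta)))
    (pc (z2_ne' (k r hr ra)))))

theorem Z4 : ∃ s ∈ C a, ∃ t ∈ C a, ∃ s' ∈ C a', ∃ t' ∈ C a', polar q s a' = 0 ∧ polar q t a' = 0 ∧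
    polar q s' a = 0 ∧ polar q t' a = 0 ∧ polar q s' s = 1 ∧ polar q s' t = 0 ∧ polar q t' s = 0 ∧ polar q t' t = 1 := by
  obtain ⟨s, hs, sa, s0, -⟩ := h.two0 ha aa 0
  obtain ⟨s', hs', sa', ss⟩ := h.Z3 Z ha ha' aa hs s0 sa
  obtain ⟨t, ht, ta, t0, st⟩ : ∃ t ∈ C a, polar q t a' = 0 ∧ t ≠ 0 ∧ polar q s' t = 0 := by
    obtain ⟨t, ht, ta, t0, ts⟩ := h.two0 ha aa s
    rcases z2 (polar q s' t) with l | l
    · exact ⟨t, ht, ta, t0, l⟩
    · exact ⟨_, h.Ca ha ht hs, by rw [polar_add_left, ta, sa, add_zero], fun m => ts (add_eq_zero'.1 m),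
        by rw [polar_add_right, l, ss, z11]⟩
  obtain ⟨t', ht', ta', tt⟩ := h.Z3 Z ha ha' aa ht t0 ta
  refine ⟨s, hs, t, ht, s', hs', _, h.Ca ha' ht' (h.Cm ha' hs' (polar q t' s)), sa, ta, sa', ?_, ss, st, ?_, ?_⟩ <;>
    simp [polar_add_left, polar_smul_left, CharTwo.add_self_eq_zero, *]

end

theorem caseZ (Z : ∀ a ∈ Γ, ∀ c ∈ C a, q c = 0) (ha : a ∈ Γ) : ∃ W W' e d, TS q Γ N W W' e d := by
  obtain ⟨k, hk, aa⟩ := h.irr ha (h.ne ha)
  have ha' := h.oΓ hk ha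
  generalize ka : k a = a' at aa ha'
  replace aa := pc aa
  obtain ⟨s, hs, t, ht, s', hs', t', ht', sa, ta, sa', ta', ss, st, ts, tt⟩ := h.Z4 Z ha ha' aa
  have add : ∀ {a a'}, a' ∈ Γ → ∀ {u v}, u ∈ {v | ∃ c ∈ C a', polar q c a = 0 ∧ ∃ i : ZMod 2, v = c + i • a} →
      v ∈ {v | ∃ c ∈ C a', polar q c a = 0 ∧ ∃ i : ZMod 2, v = c + i • a} →
      u + v ∈ {v | ∃ c ∈ C a', polar q c a = 0 ∧ ∃ i : ZMod 2, v = c + i • a} := by
    rintro a a' ha' _ _ ⟨c, h1, h2, i, rfl⟩ ⟨d, h3, h4, j, rfl⟩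
    exact ⟨_, h.Ca ha' h1 h3, by rw [polar_add_left, h2, h4, add_zero], i + j, by module⟩
  have sing : ∀ {a a'}, a ∈ Γ → a' ∈ Γ → ∀ {u},
      u ∈ {v | ∃ c ∈ C a', polar q c a = 0 ∧ ∃ i : ZMod 2, v = c + i • a} → q u = 0 := by
    rintro a a' ha ha' _ ⟨c, h1, h2, i, rfl⟩
    simp [quad_add, q_smul, polar_smul_right, h2, h.sing ha, Z _ ha' c h1]
  have gd : ∀ {a a'}, a ∈ Γ → polar q a' a = 1 → a ∈ Γ ∧
      ∀ w ∈ {v | ∃ c ∈ C a, polar q c a' = 0 ∧ ∃ i : ZMod 2, v = c + i • a'}, polar q w a = 0 → w ∈ C a := by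
    refine fun ha aa => ⟨ha, ?_⟩
    rintro _ ⟨c, h1, h2, i, rfl⟩ l
    rw [polar_add_left, polar_smul_left, h.Cp ha h1, aa, zero_add, smul_eq_mul, mul_one] at l
    simpa [l] using h1
  have D : Dual q {v | ∃ c ∈ C a', polar q c a = 0 ∧ ∃ i : ZMod 2, v = c + i • a}
      {v | ∃ c ∈ C a, polar q c a' = 0 ∧ ∃ i : ZMod 2, v = c + i • a'} ![a, s', t'] ![a', s, t] := { h.toSix with
    add := add ha', add' := add ha, sing := sing ha ha', sing' := sing ha' ha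
    sum := fun v => by
      obtain ⟨v1, v2⟩ := proj aa v
      generalize hu : v + polar q v a' • a + polar q v a • a' = u at v1 v2
      have m := h.Ca ha (h.Cm ha hs (polar q u s')) (h.Cm ha ht (polar q u t'))
      have ma : polar q (polar q u s' • s + polar q u t' • t) a' = 0 := by simp [polar_add_left, polar_smul_left, sa, ta]
      refine ⟨_, ⟨u + (polar q u s' • s + polar q u t' • t), h.Z2 Z ha' (pc aa) hs' ht' sa ta (pc ss) (pc st) (pc tt)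
        (by rw [polar_add_left, v2, ma, add_zero]) ?_ ?_, by rw [polar_add_left, v1, h.Cp ha m, add_zero],
        polar q v a', rfl⟩, _, ⟨_, m, ma, polar q v a, rfl⟩, ?_⟩
      · simp [polar_add_left, polar_smul_left, pc ss, pc st, CharTwo.add_self_eq_zero]
      · simp [polar_add_left, polar_smul_left, pc ts, pc tt, CharTwo.add_self_eq_zero]
      · generalize polar q u s' • s + polar q u t' • t = w
        rw [← hu]
        generalize polar q v a = i, polar q v a' = j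
        apply XG.v2; match_scalars <;> revert i j <;> decide
    eW := fun i => by
      fin_cases i
      exacts [⟨0, h.C0 ha', polar_zero_left q a, 1, by simp⟩, ⟨s', hs', sa', 0, by simp⟩, ⟨t', ht', ta', 0, by simp⟩]
    dW := fun i => by
      fin_cases i
      exacts [⟨0, h.C0 ha, polar_zero_left q a', 1, by simp⟩, ⟨s, hs, sa, 0, by simp⟩, ⟨t, ht, ta, 0, by simp⟩]
    dual := fun i j => by
      fin_cases i <;> fin_cases j <;> simp [*, pc (h.Cp ha hs), pc (h.Cp ha ht), h.Cp ha' hs', h.Cp ha' ht'] }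
  have g1 := fun v hv v0 => h.good D (v := v) (D.eW 0) (gd ha (pc aa)) (D.dW 0) (gd ha' aa) aa hv v0
  have g2 := fun v hv v0 => h.good D.symm (v := v) (D.dW 0) (gd ha' aa) (D.eW 0) (gd ha (pc aa)) (pc aa) hv v0
  refine ⟨_, _, _, _, D, h.subZ D Z g1 g2, h.actZ D Z g1 g2, ?_⟩
  rcases h.actZ D Z g1 g2 hk with ⟨l, -⟩ | ⟨l, m⟩
  · exact (h.ne ha' (D.inter (ka ▸ l a (D.eW 0)) (D.dW 0))).elim
  · exact h.thetaZ D g1 hk l m

theorem main (ha : a ∈ Γ) : (∀ y, y ≠ 0 → q y = 0 → y ∈ Γ ∧ (∀ f ∈ F y, f = 0 ∨ f = y) ∧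
    ∀ c, polar q c y = 0 → c ∈ C y) ∨ ∃ W W' e d, TS q Γ N W W' e d := by
  by_cases E : ∃ a ∈ Γ, ∀ f ∈ F a, f = 0 ∨ f = a
  · obtain ⟨a, ha, E⟩ := E
    exact .inl fun y => h.caseE ha E
  · exact .inr (h.caseZ (fun b hb => (h.typ hb).resolve_left fun l => E ⟨b, hb, l⟩) ha)

end OS

end CF.XG
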