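import Cfsg.Agent.XG.P

/-! Width three: adjacent extraspecial groups induce Siegel transformations. -/

set_option autoImplicit false
set_option linter.unusedSectionVars false

namespace CF.XG

open Cfsg Subgroup CF.Loc CF.Even CF.LX CF.Geom QuadraticMap

variable {G V : Type*} [Group G] [AddCommGroup V] [Module (ZMod 2) V] {q : QuadraticForm (ZMod 2) V}
  {Q : G → Subgroup G} {D : Set G} {n : ℕ} {a b e g h t x y z : G} {c f v : V} {p : G → V}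
  {ρ : G → V →ₗ[ZMod 2] V}

/-- images of adjacent involutions -/
def vΓ (Q : G → Subgroup G) (D : Set G) (z : G) (p : G → V) : Set V := {v | ∃ e, Adj Q D z e ∧ p e = v}

/-- Siegel parameters -/
def vC (Q : G → Subgroup G) (D : Set G) (z : G) (p : G → V) (q : QuadraticForm (ZMod 2) V) (ρ : G → V →ₗ[ZMod 2] V)
    (v : V) : Set V := {c | ∃ e, Adj Q D z e ∧ p e = v ∧ ∃ b ∈ Q e, b * z = z * b ∧ Rel q ρ v b c}

/-- images of intersections -/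
def vF (Q : G → Subgroup G) (D : Set G) (z : G) (p : G → V) (v : V) : Set V :=
  {f | ∃ e, Adj Q D z e ∧ p e = v ∧ ∃ y ∈ Q z, y ∈ Q e ∧ p y = f}

/-- the induced isometries -/
def vN (z : G) (ρ : G → V →ₗ[ZMod 2] V) : Set (V → V) := {f | ∃ g, g * z = z * g ∧ ⇑(ρ g) = f}

namespace Sys
variable [Finite G] (S : Sys Q D n) (L : LM (Q z) z p q ρ)
include S L

theorem commE (j : Adj Q D z a) (hb : b ∈ Q a) (bz : b * z = z * b) (ht : t ∈ Q z) (ta : t * a = a * t) :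
    t * b * t⁻¹ * b⁻¹ ∈ Q z ∧ t * b * t⁻¹ * b⁻¹ ∈ Q a :=
  ⟨S.comm_mem ht bz, mul_mem (S.fam.nor ta hb) (inv_mem hb)⟩

theorem tau0 (h6 : Six q) (j : Adj Q D z a) (hb : b ∈ Q a) (bz : b * z = z * b) (hx : x ∈ Q z)
    (c : x * a * x⁻¹ = z * a) : Rel q ρ (p a) b (p (x * b * x⁻¹ * b⁻¹)) := by
  refine S.rel_of L j hx c bz (S.zc j.aD hb) fun t ht ta => ?_
  by_contra! k
  have adj : ∀ u v, polar q (ρ b u + u) v = polar q u (ρ b v + v) := fun u v => by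
    rw [polar_add_left, polar_add_right, L.adj bz (S.sqQ j hb)]
  have TT : ∀ u v, polar q (ρ b u + u) (ρ b v + v) = 0 := fun u v => by
    rw [adj, map_add, S.ρρ L j hb bz, add_add_add_comm, add_comm v, vv, polar_zero_right]
  have Ta : ∀ u, polar q (ρ b u + u) (p a) = 0 := fun u => by rw [adj, S.ρ_a L j hb bz, vv, polar_zero_right]
  obtain ⟨m1, m2⟩ := S.commE L j hb bz ht ta
  have f0 : ρ b (p t) + p t ≠ 0 := fun l => k.1 (add_eq_zero'.1 l)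
  obtain ⟨v, v1, v2⟩ := h6.sep f0 (u := p a) fun l => k.2 (by rw [add_eq_iff.1 l, add_comm])
  obtain ⟨s, hs, rfl⟩ := L.surj v
  obtain ⟨m3, m4⟩ := S.commE L j hb bz hs ((L.cm hs j.aQ).2 v1)
  have tf : polar q (p t) (ρ b (p t) + p t) = 0 := by
    have := (L.sq m1).1 (S.E_sq j m1 m2)
    rw [L.comm ht bz, quad_add, L.ρ_q bz, CharTwo.add_self_eq_zero, zero_add] at this
    rw [polar_add_right, pol_self, add_zero, pc this]
  obtain ⟨i, l, r, e⟩ := h6.span3 (Ta (p t)) (Ta (p s)) (TT _ _) (S.p_x L j hx c) v1 ((L.cm ht j.aQ).1 ta) v2 tf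
    (by rw [← adj]; exact pc v2) (Ta (p x)) (TT _ _) (TT _ _)
  have sm : ∀ (i : ZMod 2) y, y ∈ Q z → y ∈ Q a → ∃ w ∈ Q z, w ∈ Q a ∧ p w = i • p y := fun i y h1 h2 => by
    rcases z2 i with rfl | rfl
    exacts [⟨1, one_mem _, one_mem _, by rw [L.one, zero_smul]⟩, ⟨y, h1, h2, (one_smul _ _).symm⟩]
  obtain ⟨w1, a1, b1, c1⟩ := sm i a j.aQ (S.mem j.aD)
  obtain ⟨w2, a2, b2, c2⟩ := sm l _ m1 m2
  obtain ⟨w3, a3, b3, c3⟩ := sm r _ m3 m4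
  rw [← L.comm hx bz, ← L.comm ht bz, ← L.comm hs bz, ← c1, ← c2, ← c3, ← L.mul a1 a2, ← L.mul (mul_mem a1 a2) a3] at e
  exact k.1 (L.ρ_Q (S.k1_inj j hx c hb (S.memE L j (S.comm_mem hx bz) (mul_mem (mul_mem a1 a2) a3)
    (mul_mem (mul_mem b1 b2) b3) e)) _)

theorem normC (j : Adj Q D z a) (hc : c ∈ vC Q D z p q ρ (p a)) : ∃ b ∈ Q a, b * z = z * b ∧ Rel q ρ (p a) b c := by
  obtain ⟨e, j', k, b, hb, bz, r⟩ := hc
  rcases (L.eq_iff j'.aQ j.aQ).1 k with rfl | rfl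
  · exact ⟨b, hb, bz, r⟩
  · obtain ⟨x, hx, c1⟩ := S.exists_x j
    have xz := S.zc j.zD hx
    have := L.rel_cj xz bz r
    rw [L.ρ_Q hx, L.ρ_Q hx] at this
    exact ⟨_, S.fam.mv (S.x_back j hx c1) hb, comm_mul (comm_mul xz bz) (comm_inv xz), this⟩

theorem normF (j : Adj Q D z a) (hf : f ∈ vF Q D z p (p a)) : ∃ y ∈ Q z, y ∈ Q a ∧ p y = f := by
  obtain ⟨e, j', k, y, h1, h2, r⟩ := hf
  rcases (L.eq_iff j'.aQ j.aQ).1 k with rfl | rfl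
  · exact ⟨y, h1, h2, r⟩
  · have := S.inter' j' h1 h2
    rw [← mul_assoc, S.zz j.zD, one_mul] at this
    exact ⟨y, h1, this, r⟩

omit L in
theorem adj_cj' (j : Adj Q D z a) (hg : g * z = z * g) : Adj Q D z (g * a * g⁻¹) := by
  have := S.adj_cj j g
  rwa [conj_eq_iff.2 hg] at this

theorem os (h6 : Six q) (irr : ∀ A : Subgroup G, z ∈ A → A ≤ Q z → 𝐂₁(z) ≤ 𝐍(A) → A = zpowers z ∨ A = Q z) :
    OS q (vΓ Q D z p) (vC Q D z p q ρ) (vF Q D z p) (vN z ρ) where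
  toSix := h6
  sing := by rintro _ ⟨e, t, rfl⟩; exact S.p_sing L t
  ne := by rintro _ ⟨e, t, rfl⟩; exact S.p_ne L t
  Cs := by
    rintro _ ⟨e, t, rfl⟩
    exact ⟨e, t, rfl, 1, one_mem _, by simp, by simpa using L.rel_self (S.p_sing L t) (L.rel_Q (u := p e) (one_mem _))⟩
  Fs := by rintro _ ⟨e, t, rfl⟩; exact ⟨e, t, rfl, e, t.aQ, S.mem t.aD, rfl⟩
  Cp := by rintro _ c - ⟨e, t, rfl, y, hy, -, r⟩; exact r.1
  Fq := by rintro _ c - ⟨e, t, rfl, y, h1, h2, rfl⟩; exact (L.sq h1).1 (S.E_sq t h1 h2)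
  Ca := by
    rintro _ c d ⟨e, t, rfl⟩ hc hd
    obtain ⟨x, h1, h2, r⟩ := S.normC L t hc
    obtain ⟨y, k1, k2, r'⟩ := S.normC L t hd
    exact ⟨e, t, rfl, _, mul_mem h1 k1, comm_mul h2 k2, L.rel_mul (S.p_sing L t) h2 k2 r r'⟩
  Fa := by
    rintro _ c d ⟨e, t, rfl⟩ hc hd
    obtain ⟨x, h1, h2, rfl⟩ := S.normF L t hc
    obtain ⟨y, k1, k2, rfl⟩ := S.normF L t hd
    exact ⟨e, t, rfl, _, mul_mem h1 k1, mul_mem h2 k2, L.mul h1 k1⟩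
  CF := by
    rintro _ c ⟨e, t, rfl⟩ hc hd
    obtain ⟨b, h1, h2, r⟩ := S.normC L t hc
    obtain ⟨y, k1, k2, rfl⟩ := S.normF L t hd
    obtain ⟨x, hx, c1⟩ := S.exists_x t
    have m := S.comm_mem hx h2
    have : b ∈ Q z := S.k1_inj t hx c1 h1 (by
      rcases L.rel_uniq (S.p_ne L t) r (S.tau0 L h6 t h1 h2 hx c1) with l | l
      · exact S.memE L t m k1 k2 l
      · exact S.memE L t m (mul_mem k1 t.aQ) (mul_mem k2 (S.mem t.aD)) (l.trans (L.mul k1 t.aQ).symm))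
    simpa using L.rel_uniq (S.p_ne L t) (L.rel_Q this) r
  dec := by
    rintro _ v ⟨e, t, rfl⟩ k
    obtain ⟨y, hy, rfl⟩ := L.surj v
    obtain ⟨x, hx, c1⟩ := S.exists_x t
    obtain ⟨b, h1, h2, -, h3⟩ := S.k1_to t hx c1 S.fam hy ((L.cm hy t.aQ).2 k) hy
    have m := S.comm_mem hx h2
    exact ⟨_, ⟨e, t, rfl, b, h1, h2, S.tau0 L h6 t h1 h2 hx c1⟩, _, ⟨e, t, rfl, _, mul_mem (inv_mem hy) m, h3, rfl⟩,
      by rw [L.mul (inv_mem hy) m, L.inv hy, add_comm (p y), vv']⟩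
  sgN := by rintro _ c - ⟨e, t, rfl, y, hy, yz, r⟩; exact ⟨y, yz, funext r.2⟩
  comp := by
    rintro _ _ ⟨g, g1, rfl⟩ ⟨k, k1, rfl⟩
    exact ⟨g * k, comm_mul g1 k1, funext (L.ρ_mul g1 k1)⟩
  lin := by rintro _ ⟨g, g1, rfl⟩; exact map_add _
  iso := by rintro _ ⟨g, g1, rfl⟩; exact L.ρ_q g1
  inv := by rintro _ ⟨g, g1, rfl⟩; exact ⟨_, ⟨_, comm_inv g1, rfl⟩, L.ρ_inv g1, L.ρ_inv' g1⟩
  oΓ := by
    rintro _ _ ⟨g, g1, rfl⟩ ⟨e, t, rfl⟩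
    exact ⟨_, S.adj_cj' t g1, (L.act g1 t.aQ).symm⟩
  oC := by
    rintro _ _ c ⟨g, g1, rfl⟩ - ⟨e, t, rfl, y, hy, yz, r⟩
    exact ⟨_, S.adj_cj' t g1, (L.act g1 t.aQ).symm, _, S.fam g _ _ hy, comm_mul (comm_mul g1 yz) (comm_inv g1),
      L.rel_cj g1 yz r⟩
  oF := by
    rintro _ _ c ⟨g, g1, rfl⟩ - ⟨e, t, rfl, y, h1, h2, rfl⟩
    exact ⟨_, S.adj_cj' t g1, (L.act g1 t.aQ).symm, _, L.cj g1 h1, S.fam g _ _ h2, (L.act g1 h1).symm⟩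
  irr := by
    rintro _ w ⟨e, t, rfl⟩ w0
    by_contra! k
    let A : Subgroup G := ⟨⟨⟨{x | x ∈ Q z ∧ ∀ g, g * z = z * g → polar q (ρ g (p x)) w = 0}, fun hx hy =>
      ⟨mul_mem hx.1 hy.1, fun g hg => by rw [L.mul hx.1 hy.1, map_add, polar_add_left, hx.2 g hg, hy.2 g hg, add_zero]⟩⟩,
      one_mem _, fun g _ => by simp [L.one]⟩, fun hx => ⟨inv_mem hx.1, by rw [L.inv hx.1]; exact hx.2⟩⟩
    rcases irr A ⟨S.mem t.zD, fun g _ => by simp [L.pz]⟩ (fun x hx => hx.1) (fun g hg => mem_normalizer_fintype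
      fun x hx => ⟨L.cj (mem_c1.1 hg) hx.1, fun u hu => by
        rw [← L.act (mem_c1.1 hg) hx.1, ← L.ρ_mul hu (mem_c1.1 hg)]; exact hx.2 _ (comm_mul hu (mem_c1.1 hg))⟩)
      with l | l
    · exact (L.lq.mem_z.1 (l.le (⟨t.aQ, fun g hg => z2_ne' (k _ ⟨g, hg, rfl⟩)⟩ : e ∈ A))).elim (S.ne1 t.aD) t.ne
    · exact w0 (L.nd (L.ind fun x hx => by simpa [L.ρ_Q (one_mem _)] using (l.ge hx).2 1 (by simp)))

end Sys

end CF.XG
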